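import Cfsg.Agent.Lib.HB.Bas
import Cfsg.Agent.Lib.AbInt.Ben

set_option autoImplicit false
set_option linter.unusedSectionVars false

namespace H45.HB

open Subgroup Cfsg H69 H69.SI

universe u v

variable {G : Type u} [Group G] [Finite G] {q : ℕ} {N : Subgroup G}

namespace B5p

open H72 H11.U

theorem uq {F : Type} [Field F] [Fintype F] {r : ℕ} [IsSq F r] [CharP F 2] (a : UQ F r) (ha : a * a ≠ 1) :
    Nat.card {b : UQ F r // b * a = a * b} ≤ r ^ 2 := by
  have a0 : a.X ≠ 0 := fun e => ha (UQ.mul_self_eq_one_iff.2 e)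
  have a1 : H11.U.cj r a.X ≠ 0 := (map_ne_zero _).2 a0
  have k : ∀ b : {b : UQ F r // b * a = a * b}, H11.U.cj r (b.1.X / a.X) = b.1.X / a.X := fun b => by
    have := congrArg UQ.Y b.2
    simp only [UQ.mul_Y] at this
    rw [map_div₀, div_eq_div_iff a1 a0]
    linear_combination this
  let f : {b : UQ F r // b * a = a * b} →
      Σ c : {x : F // H11.U.cj r x = x}, {y : F // y + H11.U.cj r y = c.1 * a.X * H11.U.cj r (c.1 * a.X)} :=
    fun b => ⟨⟨_, k b⟩, b.1.Y, by rw [div_mul_cancel₀ _ a0]; exact b.1.h⟩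
  have hf : Function.Injective f := fun b b' e => by
    have e1 : b.1.X / a.X = b'.1.X / a.X := congrArg (fun z => z.1.1) e
    have e2 : b.1.Y = b'.1.Y := congrArg (fun z => z.2.1) e
    exact Subtype.ext (UQ.ext ((div_left_inj' a0).1 e1) e2)
  refine (Nat.card_le_card_of_injective f hf).trans ?_
  letI := Fintype.ofFinite {x : F // H11.U.cj r x = x}
  rw [Nat.card_sigma, Finset.sum_congr rfl fun x _ => card_trace (cj_norm _),
    Finset.sum_const, Finset.card_univ, ← Nat.card_eq_fintype_card, card_fixed, smul_eq_mul, pow_two]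

theorem model {X : Type u} [Group X] [Finite X] (h : IsBenderGroup X) {S : Subgroup X} (hS : IsSylowIn 2 S ⊤) :
    Nat.card S ≤ Nat.card {x : S // x * x = 1} ^ 2 ∨ ∃ r, Nat.card S = r ^ 3 ∧
      ∀ a : S, a * a ≠ 1 → Nat.card {b : S // b * a = a * b} ≤ r ^ 2 := by
  rcases h with ⟨F, _, _, h1, h2, e⟩ | ⟨F, _, _, n, h1, h2, ⟨e⟩⟩ | h
  · obtain ⟨n, h3, h4⟩ := exists_card_eq_two_pow F h2
    left
    rw [Nat.card_congr (Equiv.subtypeUnivEquiv fun x : S => Subtype.ext
      (L2e.sq ⟨F, _, _, n, h3, h4, e⟩ (pow_of_mem hS.isP x.2)))]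
    exact Nat.le_self_pow two_ne_zero _
  · have : H11.U.IsSq F (2 ^ n) := ⟨h2⟩
    have : CharP F 2 := charP_two (n := n * 2) (by omega) (by rw [h2, pow_mul])
    obtain ⟨g, -, rfl⟩ := (isSylowIn_equiv e (isSylowIn_UQ (dvd_pow_self 2 (by omega)))).conj hS
    let E := ((MonoidHom.ofInjective (UQ.toPSU_injective (F := F) (q := 2 ^ n))).trans
      (equivMapOfInjective _ e.symm.toMonoidHom e.symm.injective)).trans
      (equivMapOfInjective _ (MulAut.conj g).toMonoidHom (MulAut.conj g).injective)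
    refine Or.inr ⟨2 ^ n, by rw [← Nat.card_congr E.toEquiv, card_UQ], fun a ha => ?_⟩
    obtain ⟨a, rfl⟩ := E.surjective a
    rw [← Nat.card_congr (E.toEquiv.subtypeEquiv (p := fun b => b * a = a * b) fun b => by
      show _ ↔ E b * E a = E a * E b
      rw [← map_mul, ← map_mul, E.injective.eq_iff])]
    exact uq a fun f => ha (by rw [← map_mul, f, map_one])
  · obtain ⟨F, _, _, m, hF, ⟨M⟩⟩ := exists_model_of_isoSuzuki h
    obtain ⟨P, rfl⟩ := hS.exists_sylow_top
    obtain ⟨g, e⟩ := M.exists_conj_U_eq P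
    rw [← e]
    generalize M.conj g = M'
    left
    rw [M'.card_U, ← M'.card_Z]
    have k : ∀ z : M'.Z, (z : X) * z = 1 := by
      rintro ⟨_, b, rfl⟩
      exact M'.u_zero_sq b
    refine Nat.pow_le_pow_left (Nat.card_le_card_of_injective
      (fun z : M'.Z => (⟨⟨z.1, M'.Z_le_U z.2⟩, Subtype.ext (k z)⟩ : {x : M'.U // x * x = 1}))
      fun z z' f => Subtype.ext (congrArg (fun w : {x : M'.U // x * x = 1} => (w.1 : X)) f)) 2

end B5p

theorem b5_of (h : B0 q N) : B5 q N where
  cube := fun {S} hS c s hs hz => by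
    have h4 := h.four
    let E := subgroupOfEquivOfLe hS.le
    rcases B5p.model h.bg hS.subgroupOf_top with k | ⟨r, k1, k2⟩
    · exfalso
      rw [Nat.card_congr E.toEquiv, c] at k
      have : Nat.card {x : S.subgroupOf N // x * x = 1} ≤ q := by
        rw [← h.cardZ hS]
        exact Nat.card_le_card_of_injective
          (fun x => ⟨x.1.1.1, h.inv hS _ x.1.2 (congrArg (fun w => w.1.1) x.2)⟩) fun x y f =>
            Subtype.ext (Subtype.ext (Subtype.ext (Subtype.mk.inj f)))
      have := k.trans (Nat.pow_le_pow_left this 2)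
      nlinarith
    · rw [Nat.card_congr E.toEquiv, c] at k1
      obtain rfl : q = r := Nat.pow_left_injective three_ne_zero k1
      refine le_trans (Nat.card_le_card_of_injective (fun x => ⟨⟨⟨x.1, hS.le (mem_inf.1 x.2).1⟩,
        (mem_inf.1 x.2).1⟩, Subtype.ext (Subtype.ext (mem_cs.1 (mem_inf.1 x.2).2))⟩) fun x y f => ?_)
        (k2 ⟨⟨s, hS.le hs⟩, hs⟩ fun f => hz (h.inv hS s hs (congrArg (fun w => w.1.1) f)))
      exact Subtype.ext (congrArg (fun w => w.1.1.1) f)
  psl := fun {S} hS c => by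
    have e : zo S = S := eq_of_le_of_card_ge zo_le' (by rw [c, h.cardZ hS])
    obtain ⟨P, hP⟩ := hS.exists_sylow_subgroupOf
    obtain ⟨F, _, _, n, hn, hF, ⟨E⟩⟩ := H72.psl_of_bender_of_comm h.bg P ⟨⟨fun a b =>
      Subtype.ext (Subtype.ext (zo_comm (e.ge (hP.le b.2)) (hP.le a.2)))⟩⟩
    have o1 : Odd (2 ^ n - 1) := Nat.Even.sub_odd Nat.one_le_two_pow (even_two.pow_of_ne_zero (by omega)) odd_one
    have o2 : Odd (2 ^ n + 1) := (even_two.pow_of_ne_zero (by omega)).add_one
    have h1 := H10.card_PSL_two (F := F)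
    rw [Nat.card_eq_fintype_card (α := F), hF, (Nat.coprime_two_left.2 o1).gcd_eq_one, one_mul, mul_assoc,
      ← Nat.card_congr E.toEquiv] at h1
    have h2 : q = 2 ^ n := by
      rw [← c, hS.card_eq_pow_factorization, h1, Nat.factorization_mul (by positivity) (o1.mul o2).pos.ne',
        Nat.prime_two.factorization_pow]
      simp [Nat.factorization_eq_zero_of_not_dvd (o1.mul o2).not_two_dvd_nat]
    refine ⟨?_, F, _, _, by rw [hF, h2], ⟨E⟩⟩
    rw [h1, ← h2, mul_comm (q - 1), ← Nat.sq_sub_sq, one_pow]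

end H45.HB
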