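import Cfsg.Agent.Lib.HB.Bas

set_option autoImplicit false
set_option linter.unusedSectionVars false

namespace H45.HB

open Subgroup Cfsg H69 H69.SI

universe u v

variable {G : Type u} [Group G] [Finite G] {Ω : Type v} [MulAction G Ω] [Finite Ω]
  {q Q μ : ℕ} {N : Ω → Subgroup G} {L : Subgroup G}

namespace DOd

theorem four_cases {S : Subgroup G} (hc : Nat.card S = 4) {x y w : G} (hx : x ∈ S) (hy : y ∈ S)
    (hw : w ∈ S) (y1 : y ≠ 1) (y2 : y * y = 1) (x1 : x ≠ 1) (xy : x ≠ y) :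
    w = 1 ∨ w = y ∨ w = x ∨ w = x * y := by
  classical
  have e1 : x * y ≠ 1 := fun e => xy (mul_right_cancel (e.trans y2.symm))
  have e2 : x * y ≠ y := fun e => x1 (by simpa using e)
  have e3 : x * y ≠ x := fun e => y1 (by simpa using e)
  have h4 : ({1, y, x, x * y} : Set G).ncard = 4 := by
    rw [Set.ncard_insert_of_notMem (by simp [y1.symm, x1.symm, e1.symm]),
      Set.ncard_insert_of_notMem (by simp [xy.symm, e2.symm]), Set.ncard_pair e3.symm]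
  have hs : ({1, y, x, x * y} : Set G) ⊆ S := by
    rintro _ (rfl | rfl | rfl | rfl)
    exacts [one_mem S, hy, hx, mul_mem hx hy]
  have := Set.eq_of_subset_of_ncard_le hs (by
    rw [h4, ← Nat.card_coe_set_eq]; exact hc.le)
  have hw' : w ∈ ({1, y, x, x * y} : Set G) := this ▸ hw
  simpa using hw'

theorem mem_of_sq {K : Subgroup G} {e : G} (ho : Odd (orderOf e)) (h : e * e ∈ K) : e ∈ K := by
  obtain ⟨k, hk⟩ := ho
  have : e = ((e * e) ^ k)⁻¹ := by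
    rw [eq_inv_iff_mul_eq_one, ← pow_two, ← pow_mul, ← pow_succ', ← hk, pow_orderOf_eq_one]
  rw [this]; exact inv_mem (pow_mem h k)

theorem v4 {S : Subgroup G} (hc : Nat.card S = 4) {e y : G} (hn : e ∈ 𝐍(S))
    (ho : Odd (orderOf e)) (hy : y ∈ S) (y1 : y ≠ 1) (y2 : y * y = 1) (c : e * y = y * e) :
    e ∈ 𝐂(S) := by
  refine mem_of_sq ho fun x hx => ?_
  have cy : e * y * e⁻¹ = y := by rw [c, mul_inv_cancel_right]
  have key : e * (e * x * e⁻¹) * e⁻¹ = x := by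
    by_cases x1 : x = 1
    · simp [x1]
    by_cases xy : x = y
    · rw [xy, cy, cy]
    rcases four_cases hc hx hy (conj_mem_of_mem_normalizer hn hx) y1 y2 x1 xy with f | f | f | f
    · exact absurd f (cj_ne x1 e)
    · exact absurd (by simpa using f.trans cy.symm) xy
    · rw [f, f]
    · calc e * (e * x * e⁻¹) * e⁻¹ = e * (x * y) * e⁻¹ := by rw [f]
        _ = (e * x * e⁻¹) * (e * y * e⁻¹) := by group
        _ = x := by rw [f, cy, mul_assoc, y2, mul_one]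
  calc x * (e * e) = e * (e * x * e⁻¹) * e⁻¹ * (e * e) := by rw [key]
    _ = e * e * x := by group

/-- commuting Sylow subgroups of `N a ∩ G_b` and `N b ∩ G_a` -/
structure Pair (N : Ω → Subgroup G) (a b : Ω) (A B : Subgroup G) : Prop where
  ne : a ≠ b
  sa : Syl (N a ⊓ MulAction.stabilizer G b) A
  sb : Syl (N b ⊓ MulAction.stabilizer G a) B
  comm : ∀ x ∈ A, ∀ y ∈ B, x * y = y * x

theorem Pair.symm {a b : Ω} {A B : Subgroup G} (p : Pair N a b A B) : Pair N b a B A :=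
  ⟨p.ne.symm, p.sb, p.sa, fun x hx y hy => (p.comm y hy x hx).symm⟩

theorem comm_mem (h : Cf q N) {a b : Ω} {x y : G} (hx : x ∈ N a) (hxb : x • b = b) (hy : y ∈ N b)
    (hya : y • a = a) : x * y * x⁻¹ * y⁻¹ ∈ N a ⊓ N b := by
  refine mem_inf.2 ⟨?_, mul_mem (conj_mem_of_mem_normalizer (h.norm hxb) hy) (inv_mem hy)⟩
  have := mul_mem hx (conj_mem_of_mem_normalizer (h.norm hya) (inv_mem hx))
  simpa only [mul_assoc] using this

theorem exists_pair (h : Cf q N) (hD : DO N) {a b : Ω} (hab : a ≠ b) : ∃ A B, Pair N a b A B := by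
  obtain ⟨P, hP⟩ := exists_isSylowIn 2 (MulAction.stabilizer G a ⊓ MulAction.stabilizer G b)
  refine ⟨P ⊓ (N a ⊓ MulAction.stabilizer G b), P ⊓ (N b ⊓ MulAction.stabilizer G a), hab,
    hP.inf_normal (inf_le_inf_right _ fun g hg => h.fix a g hg)
      (le_normalizer_inf (fun g hg => h.norm hg.1) (le_normalizer_of_le inf_le_right)),
    hP.inf_normal (fun g hg => ⟨hg.2, h.fix b g hg.1⟩)
      (le_normalizer_inf (fun g hg => h.norm hg.2) (le_normalizer_of_le inf_le_left)), ?_⟩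
  intro x hx y hy
  have hm := comm_mem h hx.2.1 hx.2.2 hy.2.1 hy.2.2
  have : x * y * x⁻¹ * y⁻¹ = 1 := by
    by_contra e
    obtain ⟨k, hk⟩ := pow_of_mem hP.isP
      (mul_mem (mul_mem (mul_mem hx.1 hy.1) (inv_mem hx.1)) (inv_mem hy.1))
    obtain ⟨n, h1, h2⟩ := exists_inv_pow e hk
    exact h1 (hD a b hab _ (pow_mem hm.1 n) h2 (pow_mem hm.2 n))
  calc x * y = x * y * x⁻¹ * y⁻¹ * (y * x) := by group
    _ = _ := by rw [this, one_mul]

theorem Pair.exists_inv (hX : XE N) {a b : Ω} {A B : Subgroup G} (p : Pair N a b A B) :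
    ∃ u ∈ A, u * u = 1 ∧ u ≠ 1 := by
  obtain ⟨u, hu, h2, h1, hb⟩ := hX a b p.ne
  obtain ⟨g, -, hg⟩ := p.sa.exists_cj_le (two_zpowers' h2) (zpowers_le.2 ⟨hu, hb⟩)
  exact ⟨_, hg (cj_mem g (mem_zpowers u)), cj_sq h2 g, cj_ne h1 g⟩

section

variable (h : Cf q N) (hX : XE N) (hD : DO N)
  (hK : ∀ x y, x ≠ y → ∀ S, Syl (N x) S → y ∉ (FS S : Set Ω))
  {a b : Ω} {A B S : Subgroup G} (p : Pair N a b A B) (hS : Syl (N a) S) (hA : A ≤ S)
include h hX hD hK p hS hA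

theorem nrm {y : G} (hy : y ∈ B) : y ∈ 𝐍(S) := by
  obtain ⟨u, hu, -, h1⟩ := p.exists_inv hX
  exact (h.bn a).norm_of_comm hS (h.norm (p.sb.le hy).2) (hA hu) h1 (p.comm u hu y hy).symm

theorem not_inner {y : G} (hy : y ∈ B) (y2 : y * y = 1) (y1 : y ≠ 1) :
    ¬ ∃ z ∈ zo S, z * y ∈ 𝐂(N a) := by
  rintro ⟨z, hz, hc⟩
  refine hK a b p.ne S hS fun s hs => h.centre hD (p.sb.le hy).1 y2 y1 ?_
  have := hc s (hS.le hs)
  rw [← mul_assoc, zo_comm hz hs, mul_assoc, mul_assoc] at this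
  exact mul_left_cancel this

theorem cent_le {y : G} (hy : y ∈ B) (y2 : y * y = 1) (y1 : y ≠ 1) : S ⊓ 𝐂[y] ≤ A :=
  (p.sa.max (S ⊓ 𝐂[y]) (fun x hx => ⟨hA hx, mem_cs.2 (p.comm x hx y hy)⟩)
    (fun _ hs => ⟨hS.le hs.1, h.centre hD (p.sb.le hy).1 y2 y1 (mem_cs.1 hs.2)⟩)
    hS.isP.to_inf_left).le

theorem one_inv {y y' : G} (hy : y ∈ B) (y2 : y * y = 1) (y1 : y ≠ 1) (hy' : y' ∈ B)
    (y2' : y' * y' = 1) (y1' : y' ≠ 1) : y = y' := by
  by_contra e
  obtain ⟨S', hS', hB⟩ := exists_isSylowIn_le p.sb.isP (p.sb.le.trans inf_le_left)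
  have z := (h.bn b).inv hS' y (hB hy) y2
  have z' := (h.bn b).inv hS' y' (hB hy') y2'
  rcases (h.bn a).out2 hS y (h.norm (p.sb.le hy).2) (nrm h hX hD hK p hS hA hy) y2 y'
    (h.norm (p.sb.le hy').2) (nrm h hX hD hK p hS hA hy') y2' (zo_comm z' (hB hy)) with f | f | f
  · exact not_inner h hX hD hK p hS hA hy y2 y1 f
  · exact not_inner h hX hD hK p hS hA hy' y2' y1' f
  · exact not_inner h hX hD hK p hS hA (mul_mem hy hy') (zo_sq (mul_mem z z'))
      (fun e' => e (mul_right_cancel (e'.trans y2'.symm))) f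

theorem small {y : G} (hy : y ∈ B) (y2 : y * y = 1) (y1 : y ≠ 1) :
    q = 4 ∧ Nat.card S = 4 ∧ ∃ S₂, Syl (N a) S₂ ∧ S₂ ≠ S ∧ y ∈ 𝐍(S₂) := by
  obtain ⟨u, hu, u2, u1⟩ := p.exists_inv hX
  obtain ⟨S', hS', hB⟩ := exists_isSylowIn_le p.sb.isP (p.sb.le.trans inf_le_left)
  have hle : Nat.card (zo S ⊓ 𝐂[y] : Subgroup G) ≤ 2 := by
    have hs : ((zo S ⊓ 𝐂[y] : Subgroup G) : Set G) ⊆ {1, u} := fun w hw => by
      by_cases w1 : w = 1
      · exact Or.inl w1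
      · exact Or.inr (one_inv h hX hD hK p.symm hS' hB
          (cent_le h hX hD hK p hS hA hy y2 y1 ⟨zo_le' hw.1, hw.2⟩) (zo_sq hw.1) w1 hu u2 u1)
    have := Set.ncard_le_ncard hs
    rwa [Set.ncard_pair u1.symm, ← Nat.card_coe_set_eq] at this
  have h4 := (h.bn a).four
  rcases (h.bn a).out hS y (h.norm (p.sb.le hy).2) (nrm h hX hD hK p hS hA hy) y2 with
    f | ⟨f, ⟨f1, f2⟩ | ⟨-, f2⟩⟩
  · exact absurd f (not_inner h hX hD hK p hS hA hy y2 y1)
  · have : q = 4 := by nlinarith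
    exact ⟨this, f1.trans this, f⟩
  · have : zo S ⊓ 𝐂[y] = zo S := inf_eq_left.2 fun z hz => mem_cs.2 (f2 z hz)
    rw [this, (h.bn a).cardZ hS] at hle
    omega

end

theorem arith : ∀ m ∈ Nat.divisors 60, ∀ n ∈ Nat.divisors 60, ∀ k ∈ Nat.divisors 60,
    m * n * k = 60 → ¬ 2 ∣ m → m ≠ 1 → 2 ∣ m * n → n ∣ 4 ∨ k = 1 ∨ k = 2 := by decide +kernel

/-- `N a ∩ N b` is trivial -/
theorem inf_bot (h : Cf q N) (hD : DO N) {a b : Ω} (hab : a ≠ b) (h60 : Nat.card (N a) = 60)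
    {u d : G} (hu : u ∈ N a) (hub : u • b = b) (u2 : u * u = 1) (u1 : u ≠ 1) (hd : d ∈ N a)
    (hdb : d • b = b) (ho : Odd (orderOf d)) (hn : d ∉ N b) : N a ⊓ N b = ⊥ := by
  by_contra hne
  set X := N a ⊓ MulAction.stabilizer G b with hXd
  have hDX : N a ⊓ N b ≤ X := inf_le_inf_left _ fun g hg => h.fix b g hg
  have e1 := H4.card_mul_relIndex_of_le hDX
  have e2 := H4.card_mul_relIndex_of_le (inf_le_left : X ≤ N a)
  have hm : ¬ 2 ∣ Nat.card (N a ⊓ N b : Subgroup G) := fun f => by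
    obtain ⟨w, hw, ho⟩ := H1.exists_mem_orderOf_eq_prime Nat.prime_two f
    have w2 : w * w = 1 := by rw [← pow_two, ← ho, pow_orderOf_eq_one]
    rw [hD a b hab w hw.1 w2 hw.2, orderOf_one] at ho
    omega
  have hm1 : Nat.card (N a ⊓ N b : Subgroup G) ≠ 1 := fun f => hne (card_eq_one.1 f)
  have h2 : 2 ∣ Nat.card X := by
    rw [← orderOf_eq_prime (p := 2) (by rw [pow_two, u2]) u1]
    exact orderOf_dvd_natCard X ⟨hu, hub⟩
  have e3 : Nat.card (N a ⊓ N b : Subgroup G) * (N a ⊓ N b).relIndex X * X.relIndex (N a) = 60 := by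
    rw [e1, e2, h60]
  have hs := (h.bn a).simple
  have hT : X.subgroupOf (N a) ≠ ⊤ := fun f => by
    obtain ⟨g, hg, hm⟩ := h.moves hab
    exact hm (subgroupOf_eq_top.1 f hg).2
  rcases arith _ (Nat.mem_divisors.2 ⟨⟨_, by rw [← e3, mul_assoc]⟩, by norm_num⟩) _
    (Nat.mem_divisors.2 ⟨Dvd.intro_left _ (by rw [← e3, mul_right_comm]), by norm_num⟩) _
    (Nat.mem_divisors.2 ⟨Dvd.intro_left _ e3, by norm_num⟩) e3 hm hm1 (e1 ▸ h2) with f | f | f
  · haveI : ((N a ⊓ N b).subgroupOf X).Normal := (normal_subgroupOf_iff_le_normalizer hDX).2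
      (le_normalizer_inf (le_normalizer_of_le inf_le_left) fun g hg => h.norm hg.2)
    have h4 : (⟨d, hd, hdb⟩ : X) ^ 4 ∈ (N a ⊓ N b).subgroupOf X := by
      obtain ⟨c, hc⟩ := f
      rw [hc, pow_mul]
      exact pow_mem (pow_index_mem _ _) c
    have h5 : d * d * (d * d) ∈ N b := by
      have := (mem_subgroupOf.1 h4).2
      simpa [pow_succ, mul_assoc] using this
    refine hn (mem_of_sq ho (mem_of_sq ?_ h5))
    rw [← pow_two]
    exact ho.of_dvd_nat (orderOf_pow_dvd 2)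
  · exact hT (index_eq_one.1 f)
  · rcases (normal_of_index_eq_two f).eq_bot_or_eq_top with f' | f'
    · have : (⟨u, hu⟩ : N a) ∈ X.subgroupOf (N a) := ⟨hu, hub⟩
      rw [f', mem_bot] at this
      exact u1 (congrArg Subtype.val this)
    · exact hT f'

end DOd

open DOd in
theorem Cf.dod (h : Cf q N) (hX : XE N) (hD : DO N) : KK N := by
  by_contra hc
  have hK : ∀ x y, x ≠ y → ∀ S, Syl (N x) S → y ∉ (FS S : Set Ω) := fun x y hxy S hS hy =>
    hc fun x' y' hxy' => by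
      obtain ⟨g, rfl, rfl⟩ := h.two x y x' y' hxy hxy'
      exact ⟨_, h.syl_cj hS g, (smul_mem_FS g).2 hy⟩
  obtain ⟨a, b, hab⟩ := h.ne
  obtain ⟨A, B, p⟩ := exists_pair h hD hab
  obtain ⟨S, hS, hA⟩ := exists_isSylowIn_le p.sa.isP (p.sa.le.trans inf_le_left)
  obtain ⟨S', hS', hB⟩ := exists_isSylowIn_le p.sb.isP (p.sb.le.trans inf_le_left)
  obtain ⟨u, hu, u2, u1⟩ := p.exists_inv hX
  obtain ⟨y, hy, y2, y1⟩ := p.symm.exists_inv hX
  obtain ⟨hq, hc4, S₂, hS₂, hne, hn₂⟩ := small h hX hD hK p hS hA hy y2 y1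
  have hc4' : Nat.card S' = 4 := (h.card_syl hS' hS).trans hc4
  obtain ⟨w0, hw0, hw1⟩ := (h.bn a).exists_z hS₂
  obtain ⟨⟨v, hv, hcv⟩, hv1⟩ := ne_bot_iff_exists_ne_one.1 (inf_centralizer_ne_bot (p := 2)
    (R := zo S₂) (T := zpowers y) (hS₂.isP.to_le zo_le') (two_zpowers' y2)
    (zpowers_le.2 (nrm_zo hn₂)) fun e => hw1 (by rwa [e] at hw0))
  have v1 : v ≠ 1 := fun e => hv1 (Subtype.ext e)
  have hvy : v * y = y * v := (hcv y (mem_zpowers y)).symm
  have uz := (h.bn a).inv hS u (hA hu) u2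
  have ho := ((h.bn a).oddP hS hS₂ hne u uz u1 v hv v1).1
  have hd : u * v ∈ N a := mul_mem (hS.le (hA hu)) (hS₂.le (zo_le' hv))
  have hdy : u * v * y = y * (u * v) := by
    rw [mul_assoc, hvy, ← mul_assoc, p.comm u hu y hy, mul_assoc]
  have hdb : (u * v) • b = b := h.centre hD (p.sb.le hy).1 y2 y1 hdy
  have d1 : u * v ≠ 1 := fun e => hne ((h.bn a).ti hS₂ hS v (zo_le' hv)
    (by rw [← mul_left_cancel (u2.trans e.symm)]; exact hA hu) v1)
  generalize u * v = d at ho hd hdy hdb d1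
  have hnb : d ∉ N b := fun f => d1 ((h.bn b).zero d f ((h.bn b).codd hS' d (le_normalizer f)
    (v4 hc4' ((h.bn b).norm_of_comm hS' (le_normalizer f) (hB hy) y1 hdy) ho (hB hy) y1 y2 hdy) ho))
  have h60 : Nat.card (N a) = 60 := by rw [((h.bn a).psl hS (hc4.trans hq.symm)).1, hq]; rfl
  have hbot := inf_bot h hD hab h60 (p.sa.le hu).1 (p.sa.le hu).2 u2 u1 hd hdb ho hnb
  have hall : ∀ x y, x ≠ y → N x ⊓ N y = ⊥ := fun x y hxy => by
    obtain ⟨g, rfl, rfl⟩ := h.two a b x y hab hxy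
    rw [← h.conj, ← h.conj, ← cj_inf, hbot, cj_bot]
  obtain ⟨g, g1, g2⟩ := h.two a b b a hab hab.symm
  have he : g * d * g⁻¹ ∈ N b := g1 ▸ h.cj_mem hd g
  have hea : (g * d * g⁻¹) • a = a := g2 ▸ cj_smul hdb
  have e1 : g * d * g⁻¹ ≠ 1 := cj_ne d1 g
  have oe : Odd (orderOf (g * d * g⁻¹)) := by
    rwa [show g * d * g⁻¹ = MulAut.conj g d from rfl, MulEquiv.orderOf_eq]
  generalize g * d * g⁻¹ = e at he hea e1 oe
  have hcm := comm_mem h (p.sa.le hu).1 (p.sa.le hu).2 he hea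
  rw [hbot, mem_bot] at hcm
  have ceu : e * u = u * e := by
    calc e * u = (u * e * u⁻¹ * e⁻¹) * (e * u) := by rw [hcm, one_mul]
      _ = u * e := by group
  have hce := (h.bn a).codd hS e (h.norm hea)
    (v4 hc4 ((h.bn a).norm_of_comm hS (h.norm hea) (hA hu) u1 ceu) oe (hA hu) u1 u2 ceu) oe
  obtain ⟨g', hg', hm⟩ := h.moves hab
  have h3 := h.cj_mem he g'
  rw [hce g' hg', mul_inv_cancel_right] at h3
  have : e ∈ N (g' • b) ⊓ N b := ⟨h3, he⟩
  rw [hall _ _ hm, mem_bot] at this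
  exact e1 this

end H45.HB
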