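import Cfsg.Agent.Lib.HB.Bas

/-! The counting facts of the block design. -/

set_option autoImplicit false
set_option linter.unusedSectionVars false

namespace H45.HB

open Subgroup Cfsg H69 H69.SI

universe u v

variable {G : Type u} [Group G] [Finite G] {Ω : Type v} [MulAction G Ω] [Finite Ω]
  {q Q μ : ℕ} {N : Ω → Subgroup G} {L : Subgroup G}

namespace EVb

theorem le_mu (h : Ev0 q Q μ N) {S S' : Subgroup G} (hS : Bk N S) (hS' : Bk N S') (hne : S' ≠ S) :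
    Nat.card (S ⊓ 𝐍(S') : Subgroup G) ≤ μ := by
  obtain ⟨p, hp⟩ := id hS'
  have pm : p ∈ (FS S' : Set Ω) := h.toCf.mem_FS_self hp.le
  rw [← h.cardD hS', ← Nat.card_coe_set_eq]
  refine Nat.card_le_card_of_injective
    (fun r : (S ⊓ 𝐍(S') : Subgroup G) => (⟨(r : G) • p, smul_mem_FS_of_norm r.2.2 pm⟩ : (FS S' : Set Ω)))
    fun r r' e => ?_
  by_contra hr
  have h1 : ((r'⁻¹ * r : (S ⊓ 𝐍(S') : Subgroup G)) : G) ≠ 1 := fun a =>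
    hr (inv_mul_eq_one.1 (Subtype.ext a)).symm
  refine Set.disjoint_left.1 (h.disj hS hS' hne _ (r'⁻¹ * r).2.1 h1 (r'⁻¹ * r).2.2)
    (h.semi hS _ (r'⁻¹ * r).2.1 h1 p ?_) pm
  show ((r' : G)⁻¹ * r) • p = p
  rw [mul_smul, inv_smul_eq_iff]
  exact congrArg Subtype.val e

theorem nadj (h : Ev0 q Q μ N) {S : Subgroup G} (hS : Bk N S) {z : G} (hz : z ∈ zo S) (h1 : z ≠ 1) :
    Set.ncard {S' | Bk N S' ∧ S' ≠ S ∧ z ∈ 𝐍(S')} * μ = (μ - 1) * Q := by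
  classical
  set A := {S' | Bk N S' ∧ S' ≠ S ∧ z ∈ 𝐍(S')}
  haveI := Fintype.ofFinite A
  have mv : ∀ p : Ω, p ∉ FS S → p ≠ z • p := fun p hp e => hp (h.semi hS z (zo_le' hz) h1 p e.symm)
  have out : ∀ T : A, ∀ p ∈ (FS T.1 : Set Ω), p ∉ (FS S : Set Ω) := fun T p hp =>
    Set.disjoint_right.1 (h.disj hS T.2.1 T.2.2.1 z (zo_le' hz) h1 T.2.2.2) hp
  let f : (Σ T : A, (FS T.1 : Set Ω)) → ((FS S : Set Ω)ᶜ : Set Ω) := fun x => ⟨x.2.1, out x.1 _ x.2.2⟩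
  have hb : Function.Bijective f := by
    constructor
    · rintro ⟨T, p, hp⟩ ⟨T', p', hp'⟩ e
      obtain rfl : p = p' := congrArg Subtype.val e
      obtain rfl : T = T' := Subtype.ext (h.uniq T.2.1 T'.2.1 p _ (mv p (out T p hp)) hp
        (smul_mem_FS_of_norm T.2.2.2 hp) hp' (smul_mem_FS_of_norm T'.2.2.2 hp'))
      rfl
    · rintro ⟨p, hp⟩
      obtain ⟨T, hT, hzp⟩ := h.join p _ (mv p hp)
      have pm : p ∈ (FS T : Set Ω) := h.toCf.mem_FS_self hT.le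
      refine ⟨⟨⟨T, ⟨p, hT⟩, fun e => hp (e ▸ pm), cj_eq_self_iff.1 (h.uniq (h.toCf.bk_cj ⟨p, hT⟩ z) ⟨p, hT⟩
        p _ (mv p hp) ?_ ((smul_mem_FS z).2 pm) pm hzp)⟩, p, pm⟩, rfl⟩
      rw [mem_FS_cj, zo_inv hz]
      exact hzp
  have e1 := Nat.card_eq_of_bijective f hb
  rw [Nat.card_sigma, Finset.sum_congr rfl (g := fun _ => μ)
    (fun T _ => by rw [Nat.card_coe_set_eq, h.cardD T.2.1]), Finset.sum_const, Finset.card_univ,
    smul_eq_mul, ← Nat.card_eq_fintype_card, Nat.card_coe_set_eq, Nat.card_coe_set_eq] at e1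
  have e2 := Set.ncard_add_ncard_compl (FS S : Set Ω)
  rw [h.cardD hS, h.cardΩ, ← e1] at e2
  have := h.two_le
  obtain ⟨m, rfl⟩ : ∃ m, μ = m + 1 := ⟨μ - 1, by omega⟩
  rw [Nat.add_sub_cancel] at e2 ⊢
  linarith

end EVb

theorem Ev0.ev (h : Ev0 q Q μ N) : Ev q Q μ N := by
  refine ⟨h, EVb.le_mu h, fun hS z hz h1 => EVb.nadj h hS hz h1, ?_, fun {x y S S'} hS hS' hne z hz h1 hn =>
    ⟨h.bn x, h.bn y, hS, hS', (h.cardS ⟨x, hS⟩).trans (h.cardS ⟨y, hS'⟩).symm,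
      fun g s a b c => cj_eq_self_iff.1 (h.ti (h.toCf.bk_cj ⟨x, hS⟩ g) ⟨x, hS⟩ s b a c),
      fun g s a b c => cj_eq_self_iff.1 (h.ti (h.toCf.bk_cj ⟨y, hS'⟩ g) ⟨y, hS'⟩ s b a c),
      fun s a b => by_contra fun c => hne (h.ti ⟨y, hS'⟩ ⟨x, hS⟩ s b a c), z, hz, h1, hn⟩⟩
  obtain ⟨x, -⟩ := h.ne
  obtain ⟨S, hS⟩ := exists_isSylowIn 2 (N x)
  obtain ⟨z, hz, h1⟩ := (h.bn x).exists_z hS
  have e := EVb.nadj h ⟨x, hS⟩ hz h1
  have := h.two_le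
  obtain ⟨m, rfl⟩ : ∃ m, μ = m + 1 := ⟨μ - 1, by omega⟩
  rw [Nat.add_sub_cancel] at e
  exact (by simp : Nat.Coprime (m + 1) m).dvd_of_dvd_mul_left ⟨_, by rw [← e, mul_comm]⟩

end H45.HB
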