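import Cfsg.Agent.Lib.HB.Bas

set_option autoImplicit false
set_option linter.unusedSectionVars false

namespace H45.HB

open Subgroup Cfsg H69 H69.SI

universe u v

variable {G : Type u} [Group G] [Finite G] {q : ℕ} {N S N' S' : Subgroup G}

/-- a 2-group permuting an odd number of cosets fixes one of them -/
theorem Fib.fixcoset {Z A : Subgroup G} (hA : IsPGroup 2 A) (hn : A ≤ 𝐍(Z)) {F : Set G}
    (h1 : ∀ s ∈ F, ∀ z ∈ Z, s * z ∈ F) (h2 : ∀ a ∈ A, ∀ s ∈ F, a * s * a⁻¹ ∈ F)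
    (ho : ∀ c, F.ncard = Nat.card Z * c → Odd c) :
    ∃ s ∈ F, ∀ a ∈ A, s⁻¹ * a * s * a⁻¹ ∈ Z := by
  let B := A.map (MulAut.conj : G →* MulAut G)
  have hB : IsPGroup 2 B := hA.map _
  have : MulAction.QuotientAction B Z := ⟨by
    rintro ⟨_, a, ha, rfl⟩ x y h
    have := conj_mem_of_mem_normalizer (hn ha) h
    show (a * x * a⁻¹)⁻¹ * (a * y * a⁻¹) ∈ Z
    convert this using 1
    group⟩
  have e : QuotientGroup.mk ⁻¹' ((QuotientGroup.mk : G → G ⧸ Z) '' F) = F := by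
    refine Set.Subset.antisymm ?_ (Set.subset_preimage_image _ _)
    rintro x ⟨s, hs, e⟩
    simpa using h1 s hs _ (QuotientGroup.eq.1 e)
  obtain ⟨_, ⟨s, hs, rfl⟩, hf⟩ := exists_fixed (G := B) (P := ⊤) (hB.to_subgroup ⊤)
    (A := (QuotientGroup.mk : G → G ⧸ Z) '' F) (ho _ (by
      have := QuotientGroup.card_preimage_mk Z ((QuotientGroup.mk : G → G ⧸ Z) '' F)
      rwa [e] at this)) (by
      rintro ⟨_, a, ha, rfl⟩ - _ ⟨s, hs, rfl⟩
      exact ⟨_, h2 a ha s hs, rfl⟩)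
  refine ⟨s, hs, fun a ha => ?_⟩
  have : s⁻¹ * (a * s * a⁻¹) ∈ Z := QuotientGroup.eq.1 (hf ⟨_, a, ha, rfl⟩ (mem_top _)).symm
  simpa only [mul_assoc] using this

theorem Fib.sq_mul {s z : G} (hs : s ∈ S) (hz : z ∈ zo S) : s * z * (s * z) = s * s := by
  rw [mul_assoc, ← mul_assoc z, ← zo_comm hz hs, mul_assoc s z, zo_sq hz, mul_one]

/-- the elements of `S` fixed modulo `zo S` by `A` -/
def Fib.fp (S A : Subgroup G) : Subgroup G where
  carrier := {s | s ∈ S ∧ ∀ a ∈ A, s * a * s⁻¹ * a⁻¹ ∈ zo S}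
  one_mem' := ⟨one_mem _, fun a _ => by simp⟩
  mul_mem' := fun {s t} hs ht => ⟨mul_mem hs.1 ht.1, fun a ha => by
    have := mul_mem (conj_mem_of_mem_normalizer (nrm_zo (le_normalizer hs.1)) (ht.2 a ha))
      (hs.2 a ha)
    convert this using 1
    group⟩
  inv_mem' := fun {s} hs => ⟨inv_mem hs.1, fun a ha => by
    have := conj_mem_of_mem_normalizer' (nrm_zo (le_normalizer hs.1)) (inv_mem (hs.2 a ha))
    convert this using 1
    group⟩

theorem Bn.fibfix (h : Bn q N) (hS : Syl N S) (hne : Nat.card S ≠ q) {A : Subgroup G}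
    (hA : IsPGroup 2 A) (hn : A ≤ 𝐍(S)) : ∃ P : Subgroup G, zo S ≤ P ∧ P ≤ S ∧
      (∀ s ∈ S, s ∈ P ↔ ∀ a ∈ A, s * a * s⁻¹ * a⁻¹ ∈ zo S) ∧
      q * Nat.card (zo S ⊓ 𝐂(A) : Subgroup G) ≤ Nat.card P := by
  have hZ : zo S ≤ Fib.fp S A := fun z hz => ⟨zo_le' hz, fun a ha => by
    simpa only [mul_assoc] using
      mul_mem hz (conj_mem_of_mem_normalizer (nrm_zo (hn ha)) (inv_mem hz))⟩
  refine ⟨Fib.fp S A, hZ, fun _ hs => hs.1, fun s hs => ⟨fun h => h.2, fun h => ⟨hs, h⟩⟩, ?_⟩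
  have ex : ∀ u : (zo S ⊓ 𝐂(A) : Subgroup G), ∃ s ∈ Fib.fp S A, s * s = u := fun ⟨u, hu, hc⟩ => by
    by_cases h1 : u = 1
    · exact ⟨1, one_mem _, by simp [h1]⟩
    obtain ⟨s, hs, hf⟩ := Fib.fixcoset hA (fun a ha => nrm_zo (hn ha))
      (F := {s | s ∈ S ∧ s * s = u})
      (fun s hs z hz => ⟨mul_mem hs.1 (zo_le' hz), (Fib.sq_mul hs.1 hz).trans hs.2⟩)
      (fun a ha s hs => ⟨conj_mem_of_mem_normalizer (hn ha) hs.1, by
        rw [← mul_inv_cancel_right u a, ← hc a ha, ← hs.2]; group⟩) (fun c hc => by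
        have e := h.fib hS u hu h1
        rw [hc, h.cardZ hS] at e
        obtain ⟨m, hm, rfl⟩ := h.pow
        obtain ⟨m, rfl⟩ := Nat.exists_eq_add_of_le' hm
        have p0 : 0 < 2 ^ (m + 2) := by positivity
        have ev : Even (2 ^ (m + 2)) := (Nat.even_pow' (by omega)).2 even_two
        have : Even ((2 ^ (m + 2) - 1) * c + 1) := by
          rcases h.cases hS with e' | ⟨e', -⟩ | e'
          · exact absurd e' hne
          · rwa [Nat.eq_of_mul_eq_mul_left p0 (show 2 ^ (m + 2) * ((2 ^ (m + 2) - 1) * c + 1) =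
              2 ^ (m + 2) * 2 ^ (m + 2) by rw [← pow_two, ← e', ← e]; ring)]
          · rw [Nat.eq_of_mul_eq_mul_left p0 (show 2 ^ (m + 2) * ((2 ^ (m + 2) - 1) * c + 1) =
              2 ^ (m + 2) * (2 ^ (m + 2) * 2 ^ (m + 2)) by rw [← pow_three, ← e', ← e]; ring)]
            exact ev.mul_right _
        exact (Nat.odd_mul.1 (Nat.not_even_iff_odd.1 (Nat.even_add_one.1 this))).2)
    exact ⟨s, (inv_mem_iff (x := s)).1 ⟨inv_mem hs.1, by simpa only [inv_inv] using hf⟩, hs.2⟩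
  choose f f1 f2 using ex
  rw [← h.cardZ hS, ← Nat.card_prod]
  refine Nat.card_le_card_of_injective
    (fun x => (⟨f x.2 * x.1, mul_mem (f1 _) (hZ x.1.2)⟩ : Fib.fp S A)) ?_
  rintro ⟨z, u⟩ ⟨z', u'⟩ e
  have e1 : f u * z = f u' * z' := congrArg Subtype.val e
  have e2 : u = u' := Subtype.ext (by
    rw [← f2 u, ← f2 u', ← Fib.sq_mul (f1 u).1 z.2, e1, Fib.sq_mul (f1 u').1 z'.2])
  subst e2
  rw [Subtype.ext (mul_left_cancel e1)]

theorem Bn.sq3 (h : Bn q N) (hS : Syl N S) {P : Subgroup G} (h1 : zo S < P) (h2 : P ≤ S)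
    (h3 : 2 * Nat.card P < Nat.card S)
    (h4 : ∀ s ∈ S, s ∉ P → ∀ c ∈ P, s * c * (s * c) = s * s) : False := by
  have ex : ∀ t : G, ∃ s ∈ S, s ∉ P ∧ t * s ∉ P := fun t => by
    by_contra! hc
    have e1 : (S : Set G) ⊆ P ∪ (fun x => t⁻¹ * x) '' P := fun s hs =>
      or_iff_not_imp_left.2 fun hp => ⟨_, hc s hs hp, inv_mul_cancel_left t s⟩
    have e2 := (Set.ncard_le_ncard e1).trans (Set.ncard_union_le _ _)
    rw [Set.ncard_image_of_injective _ (mul_right_injective _)] at e2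
    change Nat.card S ≤ Nat.card P + Nat.card P at e2
    omega
  obtain ⟨s, hs, sP, -⟩ := ex 1
  obtain ⟨t, ht, tP, stP⟩ := ex s
  have inv : ∀ s ∈ S, s ∉ P → ∀ c ∈ P, c * s = s * c⁻¹ := fun s hs sP c hc => by
    have := h4 s hs sP c hc
    rw [mul_assoc, mul_right_inj, ← mul_assoc] at this
    exact eq_mul_inv_of_mul_eq this
  refine h1.not_ge fun c hc => h.inv hS c (h2 hc) ?_
  have e := inv _ (mul_mem hs ht) stP c hc
  rw [← mul_assoc, inv s hs sP c hc, mul_assoc, inv t ht tP _ (inv_mem hc), ← mul_assoc,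
    mul_right_inj, inv_inv] at e
  exact mul_eq_one_iff_eq_inv.2 e

theorem Bn.sq_inj (h : Bn q N) (hS : Syl N S) (hc : Nat.card S = q ^ 2) {s s' : G} (hs : s ∈ S)
    (hs' : s' ∈ S) (e : s * s = s' * s') : s⁻¹ * s' ∈ zo S := by
  by_cases h1 : s * s = 1
  · exact mul_mem (inv_mem (h.inv hS s hs h1)) (h.inv hS s' hs' (e ▸ h1))
  have f := h.fib hS _ (h.sq hS s hs) h1
  have q4 := h.four
  have c1 : Set.ncard {t | t ∈ S ∧ t * t = s * s} = q := by
    obtain ⟨r, rfl⟩ : ∃ r, q = r + 1 := ⟨q - 1, by omega⟩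
    rw [hc, Nat.add_sub_cancel] at f
    exact Nat.eq_of_mul_eq_mul_left (show 0 < r by omega) (by nlinarith)
  have c2 : (fun z => s * z) '' zo S = {t | t ∈ S ∧ t * t = s * s} :=
    Set.eq_of_subset_of_ncard_le (by
      rintro _ ⟨z, hz, rfl⟩
      exact ⟨mul_mem hs (zo_le' hz), Fib.sq_mul hs hz⟩) (by
      rw [c1, Set.ncard_image_of_injective _ (mul_right_injective _)]
      exact (h.cardZ hS).ge)
  obtain ⟨z, hz, rfl⟩ : s' ∈ (fun z => s * z) '' zo S := c2 ▸ ⟨hs', e.symm⟩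
  simpa using hz

end H45.HB
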