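import Cfsg.Agent.Lib.HB.Bas

set_option autoImplicit false
set_option linter.unusedSectionVars false

namespace H45.HB

open Subgroup Cfsg H69 H69.SI

universe u v

variable {G : Type u} [Group G] [Finite G] {Ω : Type v} [MulAction G Ω] [Finite Ω]
  {q Q μ : ℕ} {N : Ω → Subgroup G} {L : Subgroup G}

namespace JL

theorem zx (h : Cf q N) (h1 : One N) {x y : Ω} (hxy : x ≠ y) : ∃ S A : Subgroup G, Syl (N x) S ∧
    A ≤ zo S ∧ ∀ u, u ∈ A ↔ u ∈ N x ∧ u * u = 1 ∧ u • y = y := by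
  obtain ⟨S, hS, k⟩ := h1 x y hxy
  exact ⟨S, zo S ⊓ MulAction.stabilizer G y, hS, inf_le_left, fun u =>
    ⟨fun hu => ⟨hS.le (zo_le' hu.1), zo_sq hu.1, hu.2⟩, fun hu => ⟨k u hu.1 hu.2.1 hu.2.2, hu.2.2⟩⟩⟩

theorem card_le {A B : Subgroup G} (g : G) (h : ∀ a ∈ A, g * a * g⁻¹ ∈ B) : Nat.card A ≤ Nat.card B := by
  rw [← card_cj A g]
  exact card_le_of_le fun x hx => by obtain ⟨a, ha, rfl⟩ := mem_cj'.1 hx; exact h a ha

theorem card_two {A B : Subgroup G} {y : G} (h : ∀ v ∈ A, v ∈ B ∨ y⁻¹ * v ∈ B) :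
    Nat.card A ≤ 2 * Nat.card B := by
  have h1 : (A : Set G) ⊆ B ∪ (fun v => y * v) '' B := fun v hv =>
    (h v hv).imp id fun e => ⟨_, e, mul_inv_cancel_left y v⟩
  have h2 := (Set.ncard_le_ncard h1).trans (Set.ncard_union_le _ _)
  have h3 := Set.ncard_image_le (f := fun v => y * v) (s := (B : Set G))
  change (A : Set G).ncard ≤ 2 * (B : Set G).ncard
  omega

/-- many elements of `zo S` have their commutator with `y` in `Z0` -/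
theorem exists_M {S Z0 : Subgroup G} {y : G} (hy : y ∈ 𝐍(zo S)) (y2 : y * y = 1)
    (hc : Nat.card (zo S ⊓ 𝐂[y] : Subgroup G) ^ 2 = Nat.card (zo S)) (h0 : Z0 ≤ zo S ⊓ 𝐂[y]) :
    ∃ M ≤ zo S, Nat.card M = Nat.card (zo S ⊓ 𝐂[y] : Subgroup G) * Nat.card Z0 ∧
      ∀ w ∈ M, w * y * w⁻¹ * y⁻¹ ∈ Z0 := by
  have m : ∀ w ∈ zo S, w * y * w⁻¹ * y⁻¹ ∈ zo S := fun w hw => by
    simpa only [mul_assoc] using mul_mem hw (conj_mem_of_mem_normalizer hy (inv_mem hw))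
  let φ : zo S →* G := MonoidHom.mk' (fun w => w * y * (w : G)⁻¹ * y⁻¹) fun w w' => by
    calc _ = w * (w' * y * (w' : G)⁻¹ * y⁻¹) * (y * (w : G)⁻¹ * y⁻¹) := by rw [coe_mul]; group
      _ = w * ((y * (w : G)⁻¹ * y⁻¹) * (w' * y * (w' : G)⁻¹ * y⁻¹)) := by
        rw [zo_comm (m _ w'.2) (zo_le' (conj_mem_of_mem_normalizer hy (inv_mem w.2))), mul_assoc]
      _ = _ := by group
  have k : φ.ker = (zo S ⊓ 𝐂[y]).subgroupOf (zo S) := by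
    ext w
    rw [MonoidHom.mem_ker, mem_subgroupOf, mem_inf, mem_cs, and_iff_right w.2]
    exact mul_inv_eq_one.trans mul_inv_eq_iff_eq_mul
  have r : φ.range ≤ zo S ⊓ 𝐂[y] := by
    rintro _ ⟨w, rfl⟩
    refine ⟨m _ w.2, mem_cs.2 ?_⟩
    have e := zo_inv (m _ w.2)
    change (w * y * (w : G)⁻¹ * y⁻¹) * y = y * (w * y * (w : G)⁻¹ * y⁻¹)
    nth_rw 2 [← e]
    rw [show y * (w * y * (w : G)⁻¹ * y⁻¹)⁻¹ = y * y * (w * y⁻¹ * (w : G)⁻¹) by group, y2,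
      inv_eq_of_mul_eq_one_left y2, mul_assoc _ y, y2, mul_one, one_mul]
  have c1 := φ.ker.card_mul_index
  rw [index_ker, k, card_subgroupOf inf_le_left, ← hc, pow_two] at c1
  have e := eq_of_le_of_card_ge r (Nat.eq_of_mul_eq_mul_left Nat.card_pos c1).ge
  have c2 := (Z0.comap φ).card_mul_index
  have c3 := H1.card_mul_relIndex_of_le h0
  rw [index_comap, e, ← hc, pow_two] at c2
  refine ⟨(Z0.comap φ).map (zo S).subtype, map_subtype_le _, ?_, ?_⟩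
  · rw [card_map_subtype]
    have p : 0 < Z0.relIndex (zo S ⊓ 𝐂[y]) := Nat.pos_of_ne_zero index_ne_zero_of_finite
    refine Nat.eq_of_mul_eq_mul_right p ?_
    rw [c2, mul_assoc, c3]
  · rintro _ ⟨w, hw, rfl⟩
    exact hw

end JL

theorem Cf.p2_nz (h : Cf q N) (hD : DE N) (h1 : One N) (hZ : NZ N) : P2 N := fun a b y hy y2 ya => by
  by_contra yN
  have hab : a ≠ b := fun e => yN (e ▸ hy)
  have bn := h.bn a
  obtain ⟨S, X, hS, XZ, hX⟩ := JL.zx h h1 hab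
  obtain ⟨S', Y, hS', YZ, hY⟩ := JL.zx h h1 hab.symm
  have yY : y ∈ Y := (hY y).2 ⟨hy, y2, ya⟩
  have key : ∀ w ∈ N a, w • b ≠ b → ∀ E ≤ Y, E ≤ N (w • b) →
      Nat.card E ≤ Nat.card (Y ⊓ N a : Subgroup G) := fun w _ hw E h2 h3 => by
    obtain ⟨g, e1, e2⟩ := h.two (w • b) b a b hw hab
    refine JL.card_le g fun v hv => ?_
    have : g * v * g⁻¹ ∈ N a := e1 ▸ h.cj_mem (h3 hv) g
    exact ⟨(hY _).2 ⟨e2 ▸ h.cj_mem ((hY v).1 (h2 hv)).1 g, cj_sq ((hY v).1 (h2 hv)).2.1 g,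
      h.fix a _ this⟩, this⟩
  obtain ⟨g, g1, g2⟩ := h.two a b b a hab hab.symm
  have cXY : Nat.card X = Nat.card Y := le_antisymm
    (JL.card_le g fun v hv => (hY _).2 ⟨g1 ▸ h.cj_mem ((hX v).1 hv).1 g, cj_sq ((hX v).1 hv).2.1 g,
      g2 ▸ cj_smul ((hX v).1 hv).2.2⟩)
    (JL.card_le g fun v hv => (hX _).2 ⟨g2 ▸ h.cj_mem ((hY v).1 hv).1 g, cj_sq ((hY v).1 hv).2.1 g,
      g1 ▸ cj_smul ((hY v).1 hv).2.2⟩)
  have z0 : Y ⊓ N a ≤ zo S := fun v hv =>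
    XZ ((hX v).2 ⟨hv.2, ((hY v).1 hv.1).2.1, h.fix b v ((hY v).1 hv.1).1⟩)
  obtain ⟨u, hu, u2, u1, ub⟩ := hD a b hab
  have u0 : u ∈ Y ⊓ N a := ⟨(hY u).2 ⟨ub, u2, h.fix a u hu⟩, hu⟩
  have cY : ∀ v ∈ Y, ∀ v' ∈ Y, v * v' = v' * v := fun v hv v' hv' => zo_comm (YZ hv') (zo_le' (YZ hv))
  have n1 : ∀ v ∈ Y, v ∈ 𝐍(N a) := fun v hv => h.norm ((hY v).1 hv).2.2
  have n2 : ∀ v ∈ Y, v ∈ 𝐍(S) := fun v hv =>
    bn.norm_of_comm hS (n1 v hv) (zo_le' (z0 u0)) u1 (cY v hv u u0.1)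
  obtain ⟨w₀, hw₀, mv⟩ : ∃ w ∈ zo S, w • b ≠ b := by
    by_contra e
    push Not at e
    exact hZ a b hab S hS e
  have e1 : Y ⊓ N a = Y ⊓ 𝐂(zo S) := eq_of_le_of_card_ge
    (fun v hv => ⟨hv.1, fun z hz => zo_comm (z0 hv) (zo_le' hz)⟩)
    (key w₀ (hS.le (zo_le' hw₀)) mv _ inf_le_left fun v hv => by
      have := h.cj_mem ((hY v).1 hv.1).1 w₀
      rwa [hv.2 w₀ hw₀, mul_inv_cancel_right] at this)
  have cz : ∀ v ∈ Y, (∃ z ∈ zo S, z * v ∈ 𝐂(N a)) → v ∈ Y ⊓ N a := fun v hv ⟨z, hz, hc⟩ =>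
    e1 ▸ ⟨hv, (mul_mem_cancel_left (show z ∈ 𝐂(zo S) from fun _ hz' => zo_comm hz (zo_le' hz'))).1
      (centralizer_anti (zo_le'.trans hS.le) hc)⟩
  have two : ∀ v ∈ Y, v ∈ Y ⊓ N a ∨ y⁻¹ * v ∈ Y ⊓ N a := fun v hv => by
    rw [inv_eq_of_mul_eq_one_left y2]
    exact ((bn.out2 hS y (n1 y yY) (n2 y yY) y2 v (n1 v hv) (n2 v hv) ((hY v).1 hv).2.1
      (cY y yY v hv)).resolve_left fun e => yN (cz y yY e).2).imp (cz v hv) (cz _ (mul_mem yY hv))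
  have hc : Nat.card (zo S ⊓ 𝐂[y] : Subgroup G) ^ 2 = q :=
    ((((bn.out hS y (n1 y yY) (n2 y yY) y2).resolve_left fun e => yN (cz y yY e).2).2).resolve_right
      fun e => yN (e1 ▸ ⟨yY, e.2⟩ : y ∈ Y ⊓ N a).2).2
  obtain ⟨M, MZ, cM, hM⟩ := JL.exists_M (Z0 := Y ⊓ N a) (nrm_zo (n2 y yY)) y2 (hc.trans (bn.cardZ hS).symm)
    fun v hv => ⟨z0 hv, mem_cs.2 (cY v hv.1 y yY)⟩
  have c1 := JL.card_two two
  have c2 : Nat.card (Y ⊓ N a : Subgroup G) < Nat.card Y := lt_of_not_ge fun e =>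
    yN ((eq_of_le_of_card_ge (inf_le_left : Y ⊓ N a ≤ Y) e).ge yY).2
  have c3 : 1 < Nat.card (Y ⊓ N a : Subgroup G) :=
    (one_lt_card_iff_ne_bot _).2 fun e => u1 (by rwa [e] at u0)
  have c4 : 2 < Nat.card (zo S ⊓ 𝐂[y] : Subgroup G) := by
    obtain ⟨k, hk⟩ := card_dvd_of_le XZ
    have c5 : Nat.card X < Nat.card (zo S) := lt_of_not_ge fun e =>
      mv ((hX _).1 ((eq_of_le_of_card_ge XZ e).ge hw₀)).2.2
    rw [bn.cardZ hS] at hk c5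
    have k2 : 2 ≤ k := by
      by_contra f
      obtain rfl | rfl : k = 0 ∨ k = 1 := by omega
      all_goals omega
    by_contra f
    nlinarith
  obtain ⟨w, hw, wX⟩ : ∃ w ∈ M, w ∉ X := by
    by_contra e
    push Not at e
    have := card_le_of_le (show M ≤ X from e)
    nlinarith
  have wZ := MZ hw
  have wN := hS.le (zo_le' wZ)
  have k0 : ∀ v ∈ Y ⊓ N a, v ∈ N (w • b) := fun v hv => by
    have := h.cj_mem ((hY v).1 hv.1).1 w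
    rwa [zo_comm (z0 hv) (zo_le' wZ), mul_inv_cancel_right] at this
  have k1 : y ∈ N (w • b) := by
    have := h.cj_mem (mul_mem ((hY _).1 (hM w hw).1).1 hy) w
    rwa [show w * (w * y * w⁻¹ * y⁻¹ * y) * w⁻¹ = w * w * y * (w * w)⁻¹ by group, zo_sq wZ, one_mul,
      inv_one, mul_one] at this
  exact c2.not_ge (key w wN (fun e => wX ((hX w).2 ⟨wN, zo_sq wZ, e⟩)) Y le_rfl fun v hv =>
    (two v hv).elim (k0 v) fun e => (mul_mem_cancel_left (inv_mem k1)).1 (k0 _ e))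

end H45.HB
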