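import Cfsg.Agent.Lib.HB.Bas

set_option autoImplicit false
set_option linter.unusedSectionVars false

namespace H45.HB

open Subgroup Cfsg H69 H69.SI

universe u v

variable {G : Type u} [Group G] [Finite G] {Ω : Type v} [MulAction G Ω] [Finite Ω]
  {q Q μ : ℕ} {N : Ω → Subgroup G} {L : Subgroup G}

namespace JM

open scoped commutatorElement in
theorem fixed_coset {Z S O : Subgroup G} (hS : IsPGroup 2 S) (hO : IsPGroup 2 O) (h1 : Z < S)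
    (nS : O ≤ 𝐍(S)) (nZ : O ≤ 𝐍(Z)) : ∃ s ∈ S, s ∉ Z ∧ ∀ o ∈ O, s * o * s⁻¹ * o⁻¹ ∈ Z := by
  obtain ⟨R, ⟨hZ, hR, hn⟩, hmin⟩ := (wellFounded_lt (α := Subgroup G)).has_min
    {R | Z < R ∧ R ≤ S ∧ O ≤ 𝐍(R)} ⟨S, h1, le_rfl, nS⟩
  have c : ⁅R, O⁆ ≤ R := commutator_le_left_of_le_normalizer hn
  have : ⁅R, O⁆ ≤ Z := by
    by_contra e
    exact hmin (Z ⊔ ⁅R, O⁆) ⟨lt_of_le_of_ne le_sup_left fun f => e (f ▸ le_sup_right),
      (sup_le hZ.le c).trans hR, le_normalizer_sup nZ (le_normalizer_commutator hn le_normalizer)⟩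
      (lt_of_le_of_ne (sup_le hZ.le c) fun f =>
        hZ.not_ge (le_of_le_sup_commutator (hS.to_le hR) hO hn hZ.le nZ f.ge))
  obtain ⟨s, hs, hs'⟩ := SetLike.exists_of_lt hZ
  exact ⟨s, hR hs, hs', fun o ho => this (commutator_mem_commutator hs ho)⟩

theorem memZ (h : Cf q N) (h1 : One N) {a b : Ω} (hab : a ≠ b) {S : Subgroup G} (hS : Syl (N a) S)
    (hb : b ∈ FS (zo S)) {u : G} (hu : u ∈ N a) (u2 : u * u = 1) (ub : u • b = b) : u ∈ zo S := by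
  obtain ⟨T, hT, k⟩ := h1 a b hab
  obtain ⟨z, hz, z1⟩ := (h.bn a).exists_z hS
  rw [(h.bn a).ti hS hT z (zo_le' hz) (zo_le' (k z (hS.le (zo_le' hz)) (zo_sq hz) (hb z hz))) z1]
  exact k u hu u2 ub

theorem fx (h : Cf q N) (h1 : One N) (hZ : ZZ N) {a : Ω} {S : Subgroup G} (hS : Syl (N a) S) {z : G}
    (hz : z ∈ zo S) (z1 : z ≠ 1) : (FS (zo S) : Set Ω) = Fx z := by
  refine Set.Subset.antisymm (fun p hp => hp z hz) fun p hp => ?_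
  by_cases e : a = p
  · exact e ▸ h.mem_FS_self (zo_le'.trans hS.le)
  obtain ⟨T, hT, k⟩ := hZ a p e
  rwa [(h.bn a).ti hS hT z (zo_le' hz) (zo_le' (memZ h h1 e hT k (hS.le (zo_le' hz)) (zo_sq hz) hp)) z1]

theorem norm (h : Cf q N) (hD : DE N) (h1 : One N) {a b : Ω} (hab : a ≠ b) {S : Subgroup G}
    (hS : Syl (N a) S) (hb : b ∈ FS (zo S)) {k : G} (ka : k • a = a) (kb : k • b = b) : k ∈ 𝐍(S) := by
  obtain ⟨u, hu, u2, u1, ub⟩ := hD a b hab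
  exact (h.bn a).norm_of hS (h.norm ka) (zo_le' (memZ h h1 hab hS hb hu u2 (h.fix b u ub))) u1
    (zo_le' (memZ h h1 hab hS hb (ka ▸ h.cj_mem hu k) (cj_sq u2 k) (kb ▸ cj_smul (h.fix b u ub))))

theorem main (h : Cf q N) (hD : DE N) (h1 : One N) (hZ : ZZ N) {a b : Ω} (hab : a ≠ b)
    {S S' : Subgroup G} (hS : Syl (N a) S) (hb : b ∈ FS (zo S)) (hS' : Syl (N b) S')
    (ha : a ∈ FS (zo S')) : (FS (zo S) : Set Ω) = FS (zo S') ∧ ∀ R : Subgroup G, IsPGroup 2 R →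
      𝐍(S') ≤ 𝐍(R) → (FS (zo S) : Set Ω) ⊆ FS R → ∀ r ∈ R, ∃ s ∈ S, s⁻¹ * r ∈ 𝐂(N a) := by
  have bn := h.bn a
  refine ⟨?_, fun R hR nR fR r hr => ?_⟩
  · obtain ⟨u, hu, u2, u1, ub⟩ := hD a b hab
    rw [fx h h1 hZ hS (memZ h h1 hab hS hb hu u2 (h.fix b u ub)) u1,
      fx h h1 hZ hS' (memZ h h1 hab.symm hS' ha ub u2 (h.fix a u hu)) u1]
  obtain ⟨K, hK⟩ : ∃ K : Subgroup G, ∀ g, g ∈ K ↔ ∀ p ∈ (FS (zo S) : Set Ω), g • p = p :=
    ⟨fixingSubgroup G (FS (zo S)), fun _ => mem_fixingSubgroup_iff G⟩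
  have aΔ : a ∈ (FS (zo S) : Set Ω) := h.mem_FS_self (zo_le'.trans hS.le)
  have KS : K ≤ 𝐍(S) := fun k hk => norm h hD h1 hab hS hb ((hK k).1 hk a aΔ) ((hK k).1 hk b hb)
  have KS' : K ≤ 𝐍(S') := fun k hk => norm h hD h1 hab.symm hS' ha ((hK k).1 hk b hb) ((hK k).1 hk a aΔ)
  have SK : 𝐍(S) ≤ 𝐍(K) := fun g hg => mem_normalizer_of_cj_le fun k hk => (hK k).2 fun p hp => by
    have := (hK _).1 (mem_cj.1 hk) _ (smul_mem_FS_of_norm (nrm_zo (inv_mem hg)) hp)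
    rwa [mul_smul, mul_smul, smul_inv_smul, smul_left_cancel_iff] at this
  obtain ⟨O, hO, OK, SO, rO⟩ : ∃ O : Subgroup G, IsPGroup 2 O ∧ O ≤ K ∧ 𝐍(S) ≤ 𝐍(O) ∧ r ∈ O :=
    ⟨pCoreOf 2 K, H70.isPGroup_pCoreOf 2 K, H70.pCoreOf_le 2 K, le_normalizer_pCoreOf_of_le SK,
      inf_le_pCoreOf hR (KS'.trans nR) ⟨hr, (hK r).2 fun p hp => fR hp r hr⟩⟩
  have OS := OK.trans KS
  have OZ : O ≤ 𝐍(zo S) := fun o ho => nrm_zo (OS ho)
  have cz : ∀ v ∈ zo S, v ∈ 𝐂(O) := fun v hv => by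
    obtain ⟨z, hz, z1⟩ := bn.exists_z hS
    obtain ⟨⟨w, hw, hc⟩, w1⟩ := ne_bot_iff_exists_ne_one.1 (inf_centralizer_ne_bot (p := 2)
      (hS.isP.to_le zo_le') hO OZ fun e => z1 (by rwa [e] at hz))
    by_cases v1 : v = 1
    · exact v1 ▸ one_mem _
    obtain ⟨T, hT, ne⟩ := bn.other hS
    obtain ⟨t, -, ht, -, rfl⟩ := bn.ztr hS hT ne w hw (fun e => w1 (Subtype.ext e)) v hv v1
    exact conj_mem_of_mem_normalizer (normalizer_le_normalizer_centralizer O (SO ht)) hc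
  obtain ⟨W, hW⟩ : ∃ W : Subgroup G, ∀ s, s ∈ W ↔ s ∈ S ∧ ∀ o ∈ O, o * s * o⁻¹ * s⁻¹ ∈ zo S :=
    ⟨{ carrier := {s | s ∈ S ∧ ∀ o ∈ O, o * s * o⁻¹ * s⁻¹ ∈ zo S}
       one_mem' := ⟨one_mem _, fun o _ => by simp⟩
       mul_mem' := fun {s s'} hs hs' => ⟨mul_mem hs.1 hs'.1, fun o ho => by
         rw [show o * (s * s') * o⁻¹ * (s * s')⁻¹ =
           o * s * o⁻¹ * s⁻¹ * (s * (o * s' * o⁻¹ * s'⁻¹) * s⁻¹) by group]
         exact mul_mem (hs.2 o ho) (conj_mem_of_mem_normalizer (nrm_zo (le_normalizer hs.1)) (hs'.2 o ho))⟩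
       inv_mem' := fun {s} hs => ⟨inv_mem hs.1, fun o ho => by
         rw [show o * s⁻¹ * o⁻¹ * s⁻¹⁻¹ = s⁻¹ * (o * s * o⁻¹ * s⁻¹)⁻¹ * s by group]
         exact conj_mem_of_mem_normalizer' (nrm_zo (le_normalizer hs.1)) (inv_mem (hs.2 o ho))⟩ },
      fun _ => Iff.rfl⟩
  have WS : S ≤ W := by
    rcases bn.irr hS W (fun z hz => (hW z).2 ⟨zo_le' hz, fun o ho =>
        mul_mem (conj_mem_of_mem_normalizer (OZ ho) hz) (inv_mem hz)⟩) (fun s hs => ((hW s).1 hs).1)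
      (fun g _ hg => mem_normalizer_of_cj_le fun x hx => by
        obtain ⟨s, hs, rfl⟩ := mem_cj'.1 hx
        refine (hW _).2 ⟨conj_mem_of_mem_normalizer hg ((hW s).1 hs).1, fun o ho => ?_⟩
        rw [show o * (g * s * g⁻¹) * o⁻¹ * (g * s * g⁻¹)⁻¹ =
          g * (g⁻¹ * o * g * s * (g⁻¹ * o * g)⁻¹ * s⁻¹) * g⁻¹ by group]
        exact conj_mem_of_mem_normalizer (nrm_zo hg)
          (((hW s).1 hs).2 _ (conj_mem_of_mem_normalizer' (SO hg) ho))) with e | e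
    · by_contra f
      obtain ⟨s, hs, hs', k⟩ := fixed_coset hS.isP hO (lt_of_le_of_ne zo_le' fun g => f (e ▸ g.ge)) OS OZ
      exact hs' (e ▸ (hW s).2 ⟨hs, fun o ho => by simpa [mul_assoc] using inv_mem (k o ho)⟩)
    · exact e.ge
  exact bn.czv hS r (h.norm ((hK r).1 (OK rO) a aΔ)) (OS rO) (fun v hv => (cz v hv r rO).symm)
    fun s hs => ((hW s).1 (WS hs)).2 r rO

theorem pass (h : Cf q N) {x y : Ω} {S T : Subgroup G} (hS : Syl (N y) S) (hT : Syl (N y) T) (ne : T ≠ S)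
    {u v : G} (hu : u ∈ zo S) (u1 : u ≠ 1) (hv : v ∈ zo T) (v1 : v ≠ 1) (ux : u ∈ N x) (vx : v • x = x) :
    v ∈ N x := by
  obtain ⟨-, g, hg, rfl⟩ := (h.bn y).oddP hS hT ne u hu u1 v hv v1
  have : g • x = x := (closure_le (MulAction.stabilizer G x)).2
    (by rintro _ (rfl | rfl); exacts [h.fix x _ ux, vx]) hg
  exact this ▸ h.cj_mem ux g

end JM

theorem Cf.p2_two (h : Cf q N) (hD : DE N) (ht : Two N) : P2 N := fun x y u hu u2 ux => by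
  by_cases e : y = x
  · exact e ▸ hu
  by_cases u1 : u = 1
  · exact u1 ▸ one_mem _
  obtain ⟨d, hd, d2, d1, dx⟩ := hD y x e
  obtain ⟨S, hS, dS⟩ := (h.bn y).exists_zo hd d2
  obtain ⟨T, hT, uT⟩ := (h.bn y).exists_zo hu u2
  by_cases f : T = S
  · subst f
    obtain ⟨v, hv, v2, vx, vS⟩ := ht y x e T hS
    obtain ⟨R, hR, vR⟩ := (h.bn y).exists_zo hv v2
    have ne : R ≠ T := fun g => vS (g ▸ vR)
    have v1 : v ≠ 1 := fun g => vS (g ▸ one_mem _)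
    exact JM.pass h hR hT ne.symm vR v1 uT u1 (JM.pass h hS hR ne dS d1 vR v1 dx vx) ux
  · exact JM.pass h hS hT f dS d1 uT u1 dx ux

theorem Cf.p2_zz (h : Cf q N) (hD : DE N) (h1 : One N) (hZ : ZZ N) : P2 N := fun a b u hu u2 ua => by
  by_cases e : a = b
  · exact e ▸ hu
  obtain ⟨S, hS, hb⟩ := hZ a b e
  obtain ⟨S', hS', ha⟩ := hZ b a (Ne.symm e)
  obtain ⟨e1, k⟩ := JM.main h hD h1 hZ e hS hb hS' ha
  have uZ := JM.memZ h h1 (Ne.symm e) hS' ha hu u2 ua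
  obtain ⟨s, hs, hc⟩ := k (zo S') (hS'.isP.to_le zo_le') (fun g hg => nrm_zo hg) e1.le u uZ
  have s2 : s * s = 1 := (h.bn a).zero _ (hS.le (mul_mem hs hs)) (by
    have := inv_mem (mul_mem hc hc)
    rwa [show s⁻¹ * u * (s⁻¹ * u) = s⁻¹ * (s * (s⁻¹ * u) * s⁻¹) * u by group, hc s (hS.le hs),
      show s⁻¹ * (s⁻¹ * u * s * s⁻¹) * u = (s * s)⁻¹ * (u * u) by group, u2, mul_one, inv_inv] at this)
  rw [← inv_mul_eq_one.1 (h.cover hZ hS hc fun p hp => by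
    rw [mul_smul, (e1 ▸ hp : p ∈ FS (zo S')) u uZ, hp _ (inv_mem ((h.bn a).inv hS s hs s2))])]
  exact hS.le hs

theorem Cf.sym (h : Cf q N) (hD : DE N) (hK : KK N) : Sym N := fun b S' hS' a ha => by
  by_cases e : a = b
  · exact e ▸ hS'
  have h1 : One N := fun x y hxy => by
    obtain ⟨T, hT, hy⟩ := hK x y hxy
    exact ⟨T, hT, fun u hu u2 uy => (h.bn x).inv hT u
      (h.kk_mem hxy hT hy hu uy (k := 1) (by rw [pow_one, pow_two, u2])) u2⟩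
  have fs : ∀ {x T}, Syl (N x) T → (FS (zo T) : Set Ω) ⊆ FS T := fun {x T} hT p hp => by
    by_cases f : x = p
    · exact f ▸ h.mem_FS_self hT.le
    obtain ⟨R, hR, hp'⟩ := hK x p f
    obtain ⟨z, hz, z1⟩ := (h.bn x).exists_z hT
    rwa [(h.bn x).ti hT hR z (zo_le' hz) (h.kk_mem f hR hp' (hT.le (zo_le' hz)) (hp z hz) (k := 1)
      (by rw [pow_one, pow_two, zo_sq hz])) z1]
  obtain ⟨S, hS, hb⟩ := hK a b e
  obtain ⟨e1, k⟩ := JM.main h hD h1 (KK.zz h hK) e hS (FS_anti zo_le' hb) hS' (FS_anti zo_le' ha)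
  rw [eq_of_le_of_card_ge (H := S') (K := S) (fun r hr => ?_) (h.card_syl hS hS').le]
  · exact hS
  obtain ⟨s, hs, hc⟩ := k S' hS'.isP le_rfl (e1 ▸ fs hS') r hr
  rwa [← inv_mul_eq_one.1 (h.cover (KK.zz h hK) hS hc fun p hp => by
    rw [mul_smul, fs hS' (e1 ▸ hp) r hr, fs hS hp _ (inv_mem hs)])]

end H45.HB
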