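import Cfsg.Agent.Lib.HB.Bas

set_option autoImplicit false
set_option linter.unusedSectionVars false

namespace H45.HB

open Subgroup Cfsg H69 H69.SI

universe u v

variable {G : Type u} [Group G] [Finite G] {Ω : Type v} [MulAction G Ω] [Finite Ω]
  {q Q μ : ℕ} {N : Ω → Subgroup G} {L : Subgroup G}

theorem Cf.ko (h : Cf q N) (hK : KK N) (hD : DO N) : False := by
  obtain ⟨a, b, hab⟩ := h.ne
  obtain ⟨S, hS, hb⟩ := hK a b hab
  obtain ⟨S', hS', ha⟩ := hK b a hab.symm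
  have com : ∀ s ∈ S, ∀ s' ∈ S', s * s' = s' * s := fun s hs s' hs' => by
    have n1 := h.kk_norm hab.symm hS' ha (hb s hs) (h.fix a s (hS.le hs))
    have n2 := h.kk_norm hab hS hb (ha s' hs') (h.fix b s' (hS'.le hs'))
    have m1 : s * s' * s⁻¹ * s'⁻¹ ∈ S := by
      simpa only [mul_assoc] using mul_mem hs (conj_mem_of_mem_normalizer n2 (inv_mem hs))
    have m2 : s * s' * s⁻¹ * s'⁻¹ ∈ S' := mul_mem (conj_mem_of_mem_normalizer n1 hs') (inv_mem hs')
    by_contra e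
    obtain ⟨k, hk⟩ := pow_of_mem hS.isP m1
    obtain ⟨n, e1, e2⟩ := exists_inv_pow (fun f => e (by
      rwa [mul_inv_eq_one, mul_inv_eq_iff_eq_mul] at f)) hk
    exact e1 (hD a b hab _ (hS.le (pow_mem m1 n)) e2 (hS'.le (pow_mem m2 n)))
  obtain ⟨y, hy, y1⟩ := (h.bn b).exists_z hS'
  have yS := zo_le' hy
  have yb := h.fix b y (hS'.le yS)
  obtain ⟨z, hz, hc⟩ := (h.bn a).czs hS y (h.norm (ha y yS)) fun s hs => com s hs y yS
  have zS := zo_le' hz
  have z1 : z ≠ 1 := fun e => by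
    obtain ⟨g, hg, hm⟩ := h.moves hab
    rw [e, one_mul] at hc
    exact hm (h.centre hD (hS'.le yS) (zo_sq hy) y1 (hc g hg))
  have cb : (z * y) • b = b := by rw [mul_smul, yb, hb z zS]
  obtain ⟨y', hy', hc'⟩ := (h.bn b).czs hS' z (h.norm (hb z zS)) fun s hs => (com z zS s hs).symm
  by_cases e : y' = y
  · subst e
    refine y1 (hD a b hab y' ?_ (zo_sq hy) (hS'.le yS))
    rw [← mul_mem_cancel_left (hS.le zS), h.cover' hK hS hc fun p hp => ?_]
    · exact one_mem _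
    by_cases f : b = p
    · exact f ▸ cb
    obtain ⟨T, hT, hp'⟩ := hK b p f
    have e1 : (z * y') • p = y' • p := by rw [com z zS y' yS, mul_smul, hp z zS]
    have e2 : T ^ᶜ y'⁻¹ = T := h.uniq f hT (hT.cj_of_mem (inv_mem (hS'.le yS))) hp' (by
      rw [mem_FS_cj, inv_inv, ← e1, com z zS y' yS]
      intro t ht
      rw [← mul_smul, hc' t (hT.le ht), mul_smul, hp' t ht])
    rw [e1]
    exact hp' _ (mem_syl' hT (hS'.le yS) (inv_mem_iff.1 (cj_eq_self_iff.1 e2)) (zo_sq hy))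
  · obtain ⟨g, hg, gn⟩ := (h.bn a).exists_not_norm hS
    have cp : (z * y) • g • b = g • b := by rw [← mul_smul, ← hc g hg, mul_smul, cb]
    have pa : a ≠ g • b := fun f => hab (by rwa [← h.fix a g hg, smul_left_cancel_iff] at f)
    have pb : b ≠ g • b := fun f => gn (h.kk_norm hab hS hb (h.fix a g hg) f.symm)
    obtain ⟨T, hT, hp⟩ := hK b _ pb
    have n1 := mul_mem (inv_mem ((h.bn b).cent_norm hT hc')) (h.kk_norm pb hT hp cb cp)
    rw [show (y' * z)⁻¹ * (z * y) = z⁻¹ * (y'⁻¹ * z) * y by group, ← com z zS _ (inv_mem (zo_le' hy')),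
      inv_mul_cancel_left] at n1
    have m := mul_mem (inv_mem hy') hy
    have e1 : T = S' := (h.bn b).ti hT hS' _ (mem_syl' hT (hS'.le (zo_le' m)) n1 (zo_sq m)) (zo_le' m)
      fun f => e (inv_mul_eq_one.1 f)
    subst e1
    rw [mul_smul, hp y yS] at cp
    have hSg := hS.cj_of_mem hg
    exact gn (cj_eq_self_iff.1 ((h.bn a).ti hSg hS z (h.kk_mem pa hSg ((smul_mem_FS g).2 hb) (hS.le zS) cp
      (k := 1) (by rw [pow_one, pow_two, zo_sq hz])) zS z1))

end H45.HB
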