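import Cfsg.Agent.Lib.HB.Bas
import Cfsg.Agent.Lib.HB.Fib

set_option autoImplicit false
set_option linter.unusedSectionVars false

namespace H45.HB

open Subgroup Cfsg H69 H69.SI

universe u v

variable {G : Type u} [Group G] [Finite G] {q : ℕ} {N S N' S' : Subgroup G}

namespace PR1

theorem card_lt (h : Pr q N S N' S') (hn : ¬ zo S ≤ 𝐍(S')) :
    Nat.card (zo S ⊓ 𝐍(S') : Subgroup G) < q := by
  by_contra hc
  rw [← h.bn.cardZ h.syl] at hc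
  exact hn (inf_eq_left.1 (eq_of_le_of_card_ge inf_le_left (not_lt.1 hc)))

theorem exists_x (h : Pr q N S N' S') (hn : ¬ zo S ≤ 𝐍(S')) : ∃ x ∈ zo S, x ∉ 𝐍(S') ∧
    ∀ r ∈ S' ⊓ 𝐍(S), x * r * x⁻¹ * r⁻¹ ∈ zo S ⊓ 𝐍(S') := by
  have hN : S' ⊓ 𝐍(S) ≤ 𝐍(zo S ⊓ 𝐍(S')) :=
    le_trans (b := 𝐂(zo S ⊓ 𝐍(S'))) (fun r hr u hu => h.comm (zo_le' hu.1) hu.2 hr.1 hr.2)
      (centralizer_le_normalizer _)
  obtain ⟨x, hx, hf⟩ := Fib.fixcoset (h.syl'.isP.to_le inf_le_left) hN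
    (F := (zo S : Set G) \ (zo S ⊓ 𝐍(S') : Subgroup G))
    (fun s hs z hz => ⟨mul_mem hs.1 hz.1, fun e => hs.2 ((mul_mem_cancel_right hz).1 e)⟩)
    (fun a ha s hs => ⟨conj_mem_of_mem_normalizer (nrm_zo ha.2) hs.1,
      fun e => hs.2 ((mem_normalizer_iff.1 (hN ha) s).2 e)⟩) (fun c hc => by
      have e := Set.ncard_diff_add_ncard_of_subset
        (show ((zo S ⊓ 𝐍(S') : Subgroup G) : Set G) ⊆ zo S from fun _ h => h.1)
      change _ + Nat.card (zo S ⊓ 𝐍(S') : Subgroup G) = Nat.card (zo S) at e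
      have lt := card_lt h hn
      rw [hc, h.bn.cardZ h.syl, ← Nat.mul_succ] at e
      obtain ⟨m, -, rfl⟩ := h.bn.pow
      obtain ⟨k, -, hk⟩ := (Nat.dvd_prime_pow Nat.prime_two).1 (Dvd.intro_left _ e)
      rcases k with _ | k
      · rw [hk] at e; omega
      · exact Nat.not_even_iff_odd.1 (Nat.even_add_one.1
          (show Even c.succ from hk ▸ (Nat.even_pow' k.succ_ne_zero).2 even_two)))
  exact ⟨x, hx.1, fun e => hx.2 ⟨hx.1, e⟩, fun r hr => by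
    simpa only [zo_inv hx.1] using hf r hr⟩

theorem not_le (h : Pr q N S N' S') (hn : ¬ zo S ≤ 𝐍(S')) : ¬ zo S' ≤ 𝐍(S) := fun f' => by
  obtain ⟨x, hx, xn, hf⟩ := exists_x h hn
  have := card_le_comm' (A := zo S') (fun r hr => hf r ⟨zo_le' hr, f' hr⟩) fun r hr e =>
    by_contra fun h1 => xn ((h.cent (zo_le' hr) (f' hr) h1 (zo_le' hx)).1 e)
  rw [h.bn'.cardZ h.syl'] at this
  exact (card_lt h hn).not_ge this

theorem le_zo (h : Pr q N S N' S') (hn : ¬ zo S ≤ 𝐍(S')) : S' ⊓ 𝐍(S) ≤ zo S' := fun r hr => by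
  obtain ⟨x, hx, xn, hf⟩ := exists_x h hn
  refine h.bn'.inv h.syl' r hr.1 (by_contra fun h1 => xn
    ((h.cent (mul_mem hr.1 hr.1) (mul_mem hr.2 hr.2) h1 (zo_le' hx)).1 ?_))
  have hu := hf r hr
  have c := h.comm (zo_le' hu.1) hu.2 hr.1 hr.2
  have s := zo_sq hu.1
  generalize e : x * r * x⁻¹ * r⁻¹ = u at c s
  have e' : x * r = u * r * x := by rw [← e]; group
  calc x * (r * r) = x * r * r := by group
    _ = u * r * (x * r) := by nth_rewrite 1 [e']; group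
    _ = u * (r * u) * r * x := by rw [e']; group
    _ = _ := by rw [← c, ← mul_assoc u, s, one_mul]

end PR1

theorem Pr.full (h : Pr q N S N' S') (hne : Nat.card S ≠ q) : zo S ≤ 𝐍(S') := by
  by_contra hn
  have hR := PR1.le_zo h.symm (PR1.not_le h hn)
  obtain ⟨w, hw, w1, wn⟩ := h.symm.adj
  obtain ⟨P, -, p2, p3, p4⟩ := h.bn.fibfix h.syl hne (two_zpowers' (zo_sq hw)) (zpowers_le.2 wn)
  have c1 : Nat.card (zo S ⊓ 𝐍(S') : Subgroup G) ≤ Nat.card (zo S ⊓ 𝐂(zpowers w) : Subgroup G) :=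
    card_le_of_le fun u hu => ⟨hu.1, fun a ha =>
      (h.comm (zo_le' hu.1) hu.2 (zpowers_le.2 (zo_le' hw) ha) (zpowers_le.2 wn ha)).symm⟩
  have c2 := card_le_comm (P := P) (W := zo S ⊓ 𝐍(S')) (a := w) fun s hs => by
    have hu := (p3 s (p2 hs)).1 hs w (mem_zpowers w)
    refine ⟨hu, (h.cent (zo_le' hw) wn w1 (zo_le' hu)).1 ?_⟩
    have := zo_inv hu
    calc s * w * s⁻¹ * w⁻¹ * w = w⁻¹ * (s * w⁻¹ * s⁻¹ * w⁻¹)⁻¹ := by group
      _ = _ := by rw [zo_inv hw] at this ⊢; rw [this]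
  have c3 : Nat.card (P ⊓ 𝐂[w] : Subgroup G) ≤ Nat.card (zo S ⊓ 𝐍(S') : Subgroup G) :=
    card_le_of_le fun s hs => by
      have := (h.cent (zo_le' hw) wn w1 (p2 hs.1)).1 (mem_cs.1 hs.2)
      exact ⟨hR ⟨p2 hs.1, this⟩, this⟩
  have c4 := PR1.card_lt h hn
  have c5 : 0 < Nat.card (zo S ⊓ 𝐍(S') : Subgroup G) := Nat.card_pos
  have := ((Nat.mul_le_mul_left q c1).trans p4).trans (c2.trans (Nat.mul_le_mul_right _ c3))
  exact c4.not_ge (Nat.le_of_mul_le_mul_right this c5)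

end H45.HB
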