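import Cfsg.Agent.Lib.HB.Bas
import Cfsg.Agent.Lib.HB.Fib

set_option autoImplicit false
set_option linter.unusedSectionVars false

namespace H45.HB

open Subgroup Cfsg H69 H69.SI

universe u v

variable {G : Type u} [Group G] [Finite G] {q : ℕ} {N S N' S' : Subgroup G}

namespace PR3

theorem sq_cj (h : Pr q N S N' S') (f : zo S ≤ 𝐍(S')) {s r : G} (hs : s ∈ S)
    (hr : r ∈ S' ⊓ 𝐍(S)) : r * s * r⁻¹ * (r * s * r⁻¹) = s * s := by
  have hz := h.bn.sq h.syl s hs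
  rw [← mul_inv_cancel_right (s * s) r, h.comm (zo_le' hz) (f hz) hr.1 hr.2]
  group

theorem free (h : Pr q N S N' S') {s : G} (hs : s ∈ S) (hn : s ∉ 𝐍(S')) {r : G}
    (hr : r ∈ S' ⊓ 𝐍(S)) (e : s * r = r * s) : r = 1 :=
  by_contra fun h1 => hn ((h.cent hr.1 hr.2 h1 hs).1 e)

theorem eq_zo (h : Pr q N S N' S') (f' : zo S' ≤ 𝐍(S)) {s : G} (hs : s ∈ S) (hn : s ∉ 𝐍(S'))
    (hc : ∀ r ∈ S' ⊓ 𝐍(S), s * r * s⁻¹ * r⁻¹ ∈ zo S) : S' ⊓ 𝐍(S) = zo S' :=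
  (eq_of_le_of_card_ge (le_inf zo_le' f') (by
    rw [h.bn'.cardZ h.syl', ← h.bn.cardZ h.syl]
    exact card_le_comm' hc fun r hr => free h hs hn hr)).symm

theorem sq_comm (h : Pr q N S N' S') (hc : Nat.card S = q ^ 2) (f : zo S ≤ 𝐍(S')) {s r : G}
    (hs : s ∈ S) (hr : r ∈ S' ⊓ 𝐍(S)) : s * r * s⁻¹ * r⁻¹ ∈ zo S := by
  have := h.bn.sq_inj h.syl hc (inv_mem hs) (conj_mem_of_mem_normalizer hr.2 (inv_mem hs))
    (sq_cj h f (inv_mem hs) hr).symm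
  simpa only [inv_inv, mul_assoc] using this

end PR3

theorem Pr.square (h : Pr q N S N' S') (hc : Nat.card S = q ^ 2) (f : zo S ≤ 𝐍(S'))
    (f' : zo S' ≤ 𝐍(S)) : S ≤ 𝐍(S') ∨ S ⊓ 𝐍(S') = zo S := by
  refine or_iff_not_imp_left.2 fun hn => ?_
  obtain ⟨s, hs, hn⟩ := SetLike.not_le_iff_exists.1 hn
  have e := PR3.eq_zo h f' hs hn fun r hr => PR3.sq_comm h hc f hs hr
  have hc' := h.card.symm.trans hc
  obtain ⟨s', hs', hn'⟩ : ∃ s' ∈ S', s' ∉ 𝐍(S) := SetLike.not_le_iff_exists.1 fun hl => by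
    rw [inf_eq_left.2 hl] at e
    have q4 := h.bn.four
    have := h.bn'.cardZ h.syl'
    rw [← e, hc'] at this
    nlinarith
  exact PR3.eq_zo h.symm f hs' hn' fun r hr => PR3.sq_comm h.symm hc' f' hs' hr

end H45.HB
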