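import Cfsg.Agent.Lib.HB.Bas
import Cfsg.Agent.Lib.HB.Fib
import Cfsg.Agent.Lib.HB.PR3

set_option autoImplicit false
set_option linter.unusedSectionVars false

namespace H45.HB

open Subgroup Cfsg H69 H69.SI

universe u v

variable {G : Type u} [Group G] [Finite G] {q : ℕ} {N S N' S' : Subgroup G}

namespace PR2
open PR3

theorem ne_q (h : Pr q N S N' S') (hc : Nat.card S = q ^ 3) : Nat.card S ≠ q := by
  have := h.bn.four
  rw [hc]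
  have : q ^ 1 < q ^ 3 := Nat.pow_lt_pow_right (by omega) (by omega)
  rw [pow_one] at this
  omega

theorem exists_P (h : Pr q N S N' S') (hc : Nat.card S = q ^ 3) (f : zo S ≤ 𝐍(S')) :
    ∃ P : Subgroup G, zo S ≤ P ∧ P ≤ S ∧
      (∀ s ∈ S, s ∈ P ↔ ∀ a ∈ S' ⊓ 𝐍(S), s * a * s⁻¹ * a⁻¹ ∈ zo S) ∧ q * q ≤ Nat.card P := by
  obtain ⟨P, p1, p2, p3, p4⟩ := h.bn.fibfix h.syl (ne_q h hc) (A := S' ⊓ 𝐍(S))
    (h.syl'.isP.to_le inf_le_left) inf_le_right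
  rw [inf_eq_left.2 fun z hz r hr => (h.comm (zo_le' hz) (f hz) hr.1 hr.2).symm,
    h.bn.cardZ h.syl] at p4
  exact ⟨P, p1, p2, p3, p4⟩

theorem fin (h : Pr q N S N' S') (hc : Nat.card S = q ^ 3) {P : Subgroup G} (p1 : zo S ≤ P)
    (p2 : P ≤ S) (p3 : Nat.card P = q * q)
    (p4 : ∀ s ∈ S, s ∉ P → ∀ c ∈ P, s * c * (s * c) = s * s) : False := by
  have q4 := h.bn.four
  refine h.bn.sq3 h.syl (lt_of_le_of_ne p1 fun e => ?_) p2 ?_ p4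
  · rw [← e, h.bn.cardZ h.syl] at p3
    nlinarith
  · rw [p3, hc, pow_three]
    exact Nat.mul_lt_mul_of_pos_right (by omega) (by positivity)

theorem caseA (h : Pr q N S N' S') (hc : Nat.card S = q ^ 3) (e : S ⊓ 𝐍(S') = zo S)
    (e' : S' ⊓ 𝐍(S) = zo S') : False := by
  have f : zo S ≤ 𝐍(S') := e ▸ inf_le_right
  have f' : zo S' ≤ 𝐍(S) := e' ▸ inf_le_right
  obtain ⟨P, p1, p2, p3, p4⟩ := exists_P h hc f
  have key : ∀ w ∈ zo S', w ≠ 1 → Nat.card P ≤ q * q ∧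
      ∀ s ∈ S, s * w * s⁻¹ * w⁻¹ ∈ zo S → s ∈ P := fun w hw w1 => by
    have l1 : P ≤ Fib.fp S (zpowers w) := fun s hs => ⟨p2 hs, fun a ha =>
      (p3 s (p2 hs)).1 hs a (e' ▸ zpowers_le.2 hw ha)⟩
    have l2 := card_le_comm (P := Fib.fp S (zpowers w)) (W := zo S) (a := w)
      fun s hs => hs.2 w (mem_zpowers w)
    have l3 : Nat.card (Fib.fp S (zpowers w) ⊓ 𝐂[w] : Subgroup G) ≤ Nat.card (zo S) :=
      card_le_of_le fun s hs => e ▸ ⟨hs.1.1, (h.cent (zo_le' hw) (f' hw) w1 hs.1.1).1 (mem_cs.1 hs.2)⟩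
    have l4 := l2.trans (Nat.mul_le_mul_right _ l3)
    rw [h.bn.cardZ h.syl] at l4
    refine ⟨(card_le_of_le l1).trans l4, fun s hs hz => ?_⟩
    rw [eq_of_le_of_card_ge l1 (l4.trans p4)]
    refine ⟨hs, fun a ha => ?_⟩
    have : a = 1 ∨ a = w := by
      obtain ⟨i, rfl⟩ := ha
      have w2 : w ^ (2 : ℤ) = 1 := (zpow_two w).trans (zo_sq hw)
      rcases Int.even_or_odd' i with ⟨k, rfl | rfl⟩
      · exact .inl (by simp only [zpow_mul, w2, one_zpow])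
      · exact .inr (by simp only [zpow_add, zpow_mul, w2, one_zpow, one_mul, zpow_one])
    rcases this with rfl | rfl
    · simp
    · exact hz
  obtain ⟨w0, hw0, w1⟩ := h.bn'.exists_z h.syl'
  have cP := le_antisymm (key w0 hw0 w1).1 p4
  refine fin h hc p1 p2 cP fun s hs sP c hcP => ?_
  have m : ∀ w ∈ zo S', s⁻¹ * (w * s * w⁻¹) ∈ P := fun w hw => by
    by_cases w1 : w = 1
    · simp [w1]
    have hρ := mul_mem (inv_mem hs) (conj_mem_of_mem_normalizer (f' hw) hs)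
    refine (key w hw w1).2 _ hρ ?_
    convert h.bn.sq h.syl _ hρ using 1
    calc _ = s⁻¹ * (w * s * w⁻¹) * (w * w) * s⁻¹ * w⁻¹ * s * w⁻¹ := by group
      _ = _ := by rw [zo_sq hw, zo_inv hw]; group
  let φ : zo S' × zo S → P := fun x => ⟨s⁻¹ * (x.1 * s * x.1⁻¹) * x.2, mul_mem (m _ x.1.2) (p1 x.2.2)⟩
  have hφ : Function.Injective φ := by
    rintro ⟨w, z⟩ ⟨w', z'⟩ e1
    have e2 : s⁻¹ * (w * s * w⁻¹) * z = s⁻¹ * (w' * s * w'⁻¹) * z' := congrArg Subtype.val e1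
    have e3 : w = w' := by
      by_contra ne
      refine sP ((inv_mem_iff (x := s)).1 ((key (w⁻¹ * w' : zo S') (w⁻¹ * w').2
        (fun e => ne (inv_mul_eq_one.1 (Subtype.ext e)))).2 _ (inv_mem hs) ?_))
      have := conj_mem_of_mem_normalizer' (nrm_zo (f' w.2)) (mul_mem z.2 (inv_mem z'.2))
      convert this using 1
      rw [eq_inv_mul_of_mul_eq e2]
      simp only [Subgroup.coe_mul, Subgroup.coe_inv]
      group
    subst e3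
    rw [Subtype.ext (mul_left_cancel e2)]
  obtain ⟨⟨w, z⟩, e1⟩ := (hφ.bijective_of_nat_card_le (by
    rw [Nat.card_prod, h.bn.cardZ h.syl, h.bn'.cardZ h.syl', cP])).2 ⟨c, hcP⟩
  have e2 : s * c = w * s * w⁻¹ * z := by
    rw [← show s⁻¹ * (w * s * w⁻¹) * z = c from congrArg Subtype.val e1]
    simp only [Subgroup.coe_inv]
    group
  rw [e2, Subgroup.coe_inv, Fib.sq_mul (conj_mem_of_mem_normalizer (f' w.2) hs) z.2,
    sq_cj h f hs ⟨zo_le' w.2, f' w.2⟩]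

theorem caseB (h : Pr q N S N' S') (hc : Nat.card S = q ^ 3) (f : zo S ≤ 𝐍(S'))
    (c1 : q * q ≤ Nat.card (S ⊓ 𝐍(S') : Subgroup G))
    (c2 : q * q ≤ Nat.card (S' ⊓ 𝐍(S) : Subgroup G)) : S ≤ 𝐍(S') := by
  by_contra hn
  obtain ⟨s0, hs0, n0⟩ := SetLike.not_le_iff_exists.1 hn
  have q4 := h.bn.four
  have cm : ∀ c ∈ S ⊓ 𝐍(S'), ∀ r ∈ S' ⊓ 𝐍(S), c * r = r * c := fun c hc r hr =>
    h.comm hc.1 hc.2 hr.1 hr.2
  have zR : zo S ≤ S ⊓ 𝐍(S') := le_inf zo_le' f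
  have mS : ∀ s ∈ S, ∀ r ∈ S' ⊓ 𝐍(S), s * r * s⁻¹ * r⁻¹ ∈ S := fun s hs r hr => by
    simpa only [mul_assoc] using mul_mem hs (conj_mem_of_mem_normalizer hr.2 (inv_mem hs))
  have k1 : ∀ s ∈ S, ∀ r ∈ S' ⊓ 𝐍(S), s * r * s⁻¹ * r⁻¹ ∉ zo S →
      S ⊓ 𝐍(S') = S ⊓ 𝐂[s * r * s⁻¹ * r⁻¹] ∧ Nat.card (S ⊓ 𝐍(S') : Subgroup G) ≤ q * q :=
    fun s hs r hr hz => by
    have l : S ⊓ 𝐍(S') ≤ S ⊓ 𝐂[s * r * s⁻¹ * r⁻¹] := fun c hc => ⟨hc.1, mem_cs.2 (by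
      have a1 := cm _ (mul_mem (zR (h.bn.comm h.syl _ (inv_mem hs) c hc.1)) hc) r hr
      rw [inv_mul_cancel_right, inv_inv] at a1
      calc c * (s * r * s⁻¹ * r⁻¹) = s * (s⁻¹ * c * s * r) * s⁻¹ * r⁻¹ := by group
        _ = s * r * s⁻¹ * (c * r⁻¹) := by rw [a1]; group
        _ = _ := by rw [cm c hc _ (inv_mem hr), ← mul_assoc])⟩
    have := h.bn.cube h.syl hc _ (mS s hs r hr) hz
    rw [pow_two] at this
    exact ⟨eq_of_le_of_card_ge l (this.trans c1), (card_le_of_le l).trans this⟩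
  have k2 : ∀ s ∈ S, ∀ r ∈ S' ⊓ 𝐍(S), s * r * s⁻¹ * r⁻¹ ∈ S ⊓ 𝐍(S') := fun s hs r hr => by
    by_cases hz : s * r * s⁻¹ * r⁻¹ ∈ zo S
    · exact zR hz
    · rw [(k1 s hs r hr hz).1]
      exact ⟨mS s hs r hr, mem_cs.2 rfl⟩
  obtain ⟨r0, hr0, z0⟩ : ∃ r ∈ S' ⊓ 𝐍(S), r ∉ zo S' := SetLike.not_le_iff_exists.1 fun l => by
    have := c2.trans (card_le_of_le l)
    rw [h.bn'.cardZ h.syl'] at this
    nlinarith
  have c3 := (k1 s0 hs0 r0 hr0 fun hz => z0 (h.bn'.inv h.syl' r0 hr0.1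
    (free h hs0 n0 (mul_mem hr0 hr0) (by
      have c := cm _ (zR hz) r0 hr0
      have s := zo_sq hz
      generalize e : s0 * r0 * s0⁻¹ * r0⁻¹ = u at c s
      have e' : s0 * r0 = u * r0 * s0 := by rw [← e]; group
      calc s0 * (r0 * r0) = s0 * r0 * r0 := by group
        _ = u * r0 * (s0 * r0) := by nth_rewrite 1 [e']; group
        _ = u * (r0 * u) * r0 * s0 := by rw [e']; group
        _ = _ := by rw [← c, ← mul_assoc u, s, one_mul])))).2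
  refine fin h hc zR inf_le_left (le_antisymm c3 c1) fun s hs sR c hcR => ?_
  let φ : (S' ⊓ 𝐍(S) : Subgroup G) → (S ⊓ 𝐍(S') : Subgroup G) := fun r =>
    ⟨_, k2 _ (inv_mem hs) r r.2⟩
  have hφ : Function.Injective φ := fun r r' e => by
    have e1 : s⁻¹ * r * s⁻¹⁻¹ * (r : G)⁻¹ = s⁻¹ * r' * s⁻¹⁻¹ * (r' : G)⁻¹ := congrArg Subtype.val e
    refine Subtype.ext (inv_mul_eq_one.1 (free h hs (fun n => sR ⟨hs, n⟩)
      (mul_mem (inv_mem r.2) r'.2) ?_))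
    calc s * ((r : G)⁻¹ * r') = (r : G)⁻¹ * s * (s⁻¹ * r * s⁻¹⁻¹ * (r : G)⁻¹) * r' := by group
      _ = _ := by rw [e1]; group
  obtain ⟨r, e1⟩ := (hφ.bijective_of_nat_card_le (c3.trans c2)).2 ⟨c, hcR⟩
  have e2 : s * c = r * s * (r : G)⁻¹ := by
    rw [← show s⁻¹ * r * s⁻¹⁻¹ * (r : G)⁻¹ = c from congrArg Subtype.val e1]
    group
  rw [e2, sq_cj h f hs r.2]

end PR2

theorem Pr.cube (h : Pr q N S N' S') (hc : Nat.card S = q ^ 3) (f : zo S ≤ 𝐍(S'))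
    (f' : zo S' ≤ 𝐍(S)) : S ≤ 𝐍(S') := by
  have hc' := h.card.symm.trans hc
  have q4 := h.bn.four
  obtain ⟨P, -, p2, p3, p4⟩ := PR2.exists_P h hc f
  obtain ⟨P', -, p2', p3', p4'⟩ := PR2.exists_P h.symm hc' f'
  have a : ¬ P ≤ S ⊓ 𝐍(S') → S' ⊓ 𝐍(S) = zo S' := fun n => by
    obtain ⟨s, hs, sn⟩ := SetLike.not_le_iff_exists.1 n
    exact PR3.eq_zo h f' (p2 hs) (fun e => sn ⟨p2 hs, e⟩) ((p3 s (p2 hs)).1 hs)
  have a' : ¬ P' ≤ S' ⊓ 𝐍(S) → S ⊓ 𝐍(S') = zo S := fun n => by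
    obtain ⟨s, hs, sn⟩ := SetLike.not_le_iff_exists.1 n
    exact PR3.eq_zo h.symm f (p2' hs) (fun e => sn ⟨p2' hs, e⟩) ((p3' s (p2' hs)).1 hs)
  have b : S ⊓ 𝐍(S') = zo S → ¬ P ≤ S ⊓ 𝐍(S') := fun e l => by
    have := p4.trans (card_le_of_le l)
    rw [e, h.bn.cardZ h.syl] at this
    nlinarith
  have b' : S' ⊓ 𝐍(S) = zo S' → ¬ P' ≤ S' ⊓ 𝐍(S) := fun e l => by
    have := p4'.trans (card_le_of_le l)
    rw [e, h.bn'.cardZ h.syl'] at this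
    nlinarith
  by_cases l : P ≤ S ⊓ 𝐍(S')
  · by_cases l' : P' ≤ S' ⊓ 𝐍(S)
    · exact PR2.caseB h hc f (p4.trans (card_le_of_le l)) (p4'.trans (card_le_of_le l'))
    · exact absurd l (b (a' l'))
  · exact (PR2.caseA h hc (a' (b' (a l))) (a l)).elim

end H45.HB
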