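import Cfsg.Agent.Lib.HB.Bas

set_option autoImplicit false
set_option linter.unusedSectionVars false

namespace H45.HB

open Subgroup Cfsg H69 H69.SI

universe u v

variable {G : Type u} [Group G] [Finite G] {Ω : Type v} [MulAction G Ω] [Finite Ω]
  {q Q μ : ℕ} {N : Ω → Subgroup G} {L : Subgroup G}

namespace Pl0

theorem par (h : Ev q Q Q N) {S : Subgroup G} (hS : Bk N S) {c : Ω} (hc : c ∉ FS S) :
    ∃ T, ∀ T', (Syl (N c) T' ∧ Disjoint (FS S : Set Ω) (FS T')) ↔ T' = T := by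
  have hf : ∀ p ∈ (FS S : Set Ω), ∃ T, Syl (N c) T ∧ p ∈ FS T := fun p hp =>
    h.join c p fun e => hc (e ▸ hp)
  choose! f f1 f2 using hf
  have inj : Set.InjOn f (FS S) := fun p hp p' hp' e => by
    by_contra ne
    have := h.toEv0.uniq hS ⟨c, f1 p hp⟩ p p' ne hp hp' (f2 p hp) (e ▸ f2 p' hp')
    exact hc (this ▸ h.toEv0.toCf.mem_FS_self (f1 p hp).le)
  obtain ⟨S0, hS0⟩ := exists_isSylowIn 2 (N c)
  have sub : f '' FS S ⊆ {T | Syl (N c) T} := by rintro _ ⟨p, hp, rfl⟩; exact f1 p hp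
  have := Set.ncard_sdiff sub
  rw [(h.bn c).nsyl hS0, h.cardS ⟨c, hS0⟩, inj.ncard_image, h.cardD hS,
    Nat.add_sub_cancel_left, Set.ncard_eq_one] at this
  obtain ⟨T, hT⟩ := this
  refine ⟨T, fun T' => ?_⟩
  rw [← Set.mem_singleton_iff, ← hT]
  refine and_congr_right fun h1 => ⟨?_, fun h2 => Set.disjoint_left.2 fun p hp hp' => h2 ⟨p, hp, ?_⟩⟩
  · rintro d ⟨p, hp, rfl⟩
    exact Set.disjoint_left.1 d hp (f2 p hp)
  · exact h.toEv0.toCf.uniq (fun e : c = p => hc (e ▸ hp)) h1 (f1 p hp) hp' (f2 p hp)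

theorem par_uniq (h : Ev q Q Q N) {S T T' : Subgroup G} (hS : Bk N S) (hT : Bk N T) (hT' : Bk N T')
    {c : Ω} (c1 : c ∈ FS T) (c2 : c ∈ FS T') (d1 : Disjoint (FS S : Set Ω) (FS T))
    (d2 : Disjoint (FS S : Set Ω) (FS T')) : T = T' := by
  obtain ⟨T0, h0⟩ := par h hS (Set.disjoint_right.1 d1 c1)
  rw [(h0 T).1 ⟨h.sym hT c c1, d1⟩, (h0 T').1 ⟨h.sym hT' c c2, d2⟩]

theorem nrm (h : Ev q Q Q N) {S S' : Subgroup G} (hS : Bk N S) (hS' : Bk N S')
    (d : Disjoint (FS S : Set Ω) (FS S')) : S ≤ 𝐍(S') := fun s hs => by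
  have hc := h.toEv0.toCf
  obtain ⟨c, hc'⟩ := id hS'
  have c1 := hc.mem_FS_self hc'.le
  have c2 := Set.disjoint_right.1 d c1
  by_cases s1 : s = 1
  · exact s1 ▸ one_mem _
  have ne : c ≠ s • c := fun e => c2 (h.semi hS s hs s1 c e.symm)
  obtain ⟨Λ, hΛ, m⟩ := h.join c _ ne
  have cΛ := hc.mem_FS_self hΛ.le
  have bΛ : Bk N Λ := ⟨c, hΛ⟩
  have dΛ : Disjoint (FS S : Set Ω) (FS Λ) := Set.disjoint_left.2 fun x hx hx' => by
    have e := h.toEv0.uniq (hc.bk_cj bΛ s) bΛ x (s • c)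
      (fun e => c2 (by rw [← smul_left_cancel s ((hx s hs).trans e)]; exact hx))
      (hx s hs ▸ (smul_mem_FS s).2 hx') ((smul_mem_FS s).2 cΛ) hx' m
    exact Set.disjoint_left.1 (h.disj hS bΛ (fun e => c2 (e ▸ cΛ)) s hs s1 (cj_eq_self_iff.1 e)) hx hx'
  obtain rfl := par_uniq h hS bΛ hS' cΛ c1 dΛ d
  refine cj_eq_self_iff.1 (par_uniq h hS (hc.bk_cj bΛ s) bΛ ((smul_mem_FS s).2 cΛ) m
    (Set.disjoint_left.2 fun x hx hx' => ?_) d)
  rw [mem_FS_cj, hx _ (inv_mem hs)] at hx'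
  exact Set.disjoint_left.1 d hx hx'

end Pl0

theorem Ev.pa (h : Ev q Q Q N) : Pa N := by
  have hc := h.toEv0.toCf
  refine ⟨fun {S} hS c => ?_, fun {S S' S''} hS hS' hS'' p1 p2 => ?_, fun {S S'} hS hS' p => ?_,
    fun {S S'} hS hS' d s hs s' hs' => ?_, fun {S S'} hS hS' d x hx y hy => ?_, fun {S S'} hS hS' => ?_⟩
  · by_cases e : c ∈ FS S
    · exact ⟨S, hS, e, Or.inl rfl⟩
    · obtain ⟨T, hT⟩ := Pl0.par h hS e
      obtain ⟨h1, h2⟩ := (hT T).2 rfl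
      exact ⟨T, ⟨c, h1⟩, hc.mem_FS_self h1.le, Or.inr h2⟩
  · rcases p1 with rfl | d1
    · exact p2
    rcases p2 with rfl | d2
    · exact Or.inr d1.symm
    refine or_iff_not_imp_right.2 fun d => ?_
    obtain ⟨c, c1, c2⟩ := Set.not_disjoint_iff.1 d
    exact Pl0.par_uniq h hS hS' hS'' c1 c2 d1 d2
  · rcases p with rfl | d
    exacts [le_normalizer, Pl0.nrm h hS hS' d]
  · have m1 : s' * s * s'⁻¹ * s⁻¹ ∈ S :=
      mul_mem (conj_mem_of_mem_normalizer (Pl0.nrm h hS' hS d.symm hs') hs) (inv_mem hs)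
    have m2 : s' * s * s'⁻¹ * s⁻¹ ∈ S' := by
      simpa only [mul_assoc] using
        mul_mem hs' (conj_mem_of_mem_normalizer (Pl0.nrm h hS hS' d hs) (inv_mem hs'))
    by_contra e
    obtain rfl := h.toEv0.ti hS hS' _ m1 m2 fun f => e (by
      rwa [mul_inv_eq_one, mul_inv_eq_iff_eq_mul] at f)
    obtain ⟨c, hc'⟩ := hS
    exact Set.disjoint_left.1 d (hc.mem_FS_self hc'.le) (hc.mem_FS_self hc'.le)
  · have inj : Set.InjOn (fun s : G => s • x) S := fun s hs s' hs' e => by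
      by_contra ne
      exact Set.disjoint_right.1 d hx (h.semi hS (s⁻¹ * s') (mul_mem (inv_mem hs) hs')
        (fun f => ne (inv_mul_eq_one.1 f)) x (by rw [mul_smul, inv_smul_eq_iff]; exact e.symm))
    have := Set.eq_of_subset_of_ncard_le (s := (fun s : G => s • x) '' S) (t := FS S') (by
      rintro _ ⟨s, hs, rfl⟩; exact smul_mem_FS_of_norm (Pl0.nrm h hS hS' d hs) hx) (by
      rw [inj.ncard_image, h.cardD hS']; exact (h.cardS hS).ge)
    rw [← this] at hy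
    exact hy
  · by_contra e
    have e1 : (FS S : Set Ω) ∪ FS S' = Set.univ := Set.eq_univ_of_forall fun c => by
      by_contra f
      exact e ⟨c, fun g => f (Or.inl g), fun g => f (Or.inr g)⟩
    have := Set.ncard_union_le (FS S : Set Ω) (FS S')
    rw [e1, Set.ncard_univ, h.cardΩ, h.cardD hS, h.cardD hS'] at this
    obtain ⟨c, hc'⟩ := hS
    have h4 := (h.bn c).four.trans ((h.bn c).q_le hc')
    rw [h.cardS ⟨c, hc'⟩] at h4
    obtain ⟨k, rfl⟩ := Nat.exists_eq_add_of_le' (show 1 ≤ Q by omega)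
    rw [Nat.add_sub_cancel] at this
    nlinarith

end H45.HB
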