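import Cfsg.Agent.Lib.HB.Bas

set_option autoImplicit false
set_option linter.unusedSectionVars false

namespace H45.HB

open Subgroup Cfsg H69 H69.SI

universe u v

variable {G : Type u} [Group G] [Finite G] {Ω : Type v} [MulAction G Ω] [Finite Ω]
  {q Q μ : ℕ} {N : Ω → Subgroup G} {L : Subgroup G}

theorem Ev.abel (h : Ev q Q Q N) (p : Pa N) : Q = q := by
  have hc := h.toEv0.toCf
  obtain ⟨a, -, -⟩ := h.ne
  obtain ⟨S, hS⟩ := exists_isSylowIn 2 (N a)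
  have bS : Bk N S := ⟨a, hS⟩
  have ha := hc.mem_FS_self hS.le
  obtain ⟨c, c1, -⟩ := p.third bS bS
  obtain ⟨S₁, b1, m1, p1⟩ := p.ex bS c
  obtain ⟨c', c2, c3⟩ := p.third bS b1
  obtain ⟨S₂, b2, m2, p2⟩ := p.ex bS c'
  have d1 := p1.resolve_left fun e => c1 (e ▸ m1)
  have d2 := p2.resolve_left fun e => c2 (e ▸ m2)
  have d3 := (p.tr bS b1 b2 p1 p2).resolve_left fun e => c3 (e ▸ m2)
  obtain ⟨x, hx⟩ := b2
  have b2 : Bk N S₂ := ⟨x, hx⟩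
  rw [← h.cardS b2, ← (h.bn x).cardZ hx]
  congr 2
  refine le_antisymm (fun s₂ h2 => (h.bn x).cen hx s₂ h2 ?_) zo_le'
  have k2 := p.cen b2 bS d2.symm h2
  obtain ⟨s₁, h1, e⟩ := p.reg b1 bS d1.symm a ha _
    (smul_mem_FS_of_norm (centralizer_le_normalizer _ k2) ha)
  obtain ⟨z, hz, hz'⟩ := (h.bn a).czs hS (s₁⁻¹ * s₂) (hc.norm (by rw [mul_smul, ← e, inv_smul_smul]))
    (mul_mem (inv_mem (p.cen b1 bS d1.symm h1)) k2)
  have fx : ∀ y : Ω, y ∉ FS S → (z * (s₁⁻¹ * s₂)) • y = y := fun y hy => by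
    by_contra ne
    obtain ⟨Λ, hΛ, yΛ⟩ := h.join a y fun f => hy (f ▸ ha)
    obtain ⟨P, bP, yP, pP⟩ := p.ex bS y
    have := h.toEv0.uniq ⟨a, hΛ⟩ bP _ _ ne (smul_mem_FS_of_norm ((h.bn a).cent_norm hΛ hz') yΛ) yΛ
      (smul_mem_FS_of_norm (mul_mem (p.nrm bS bP pP (zo_le' hz)) (mul_mem
        (inv_mem (p.nrm b1 bP (p.tr bS b1 bP p1 pP) h1)) (p.nrm b2 bP (p.tr bS b2 bP p2 pP) h2))) yP) yP
    subst this
    rcases pP with f | f
    · exact hy (f ▸ yP)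
    · exact Set.disjoint_left.1 f ha (hc.mem_FS_self hΛ.le)
  obtain ⟨T, hT, ne⟩ := (h.bn a).other hS
  have e1 := h.cfix hT _ hz' fun y hy => by
    by_cases f : a = y
    · exact f ▸ hc.cent_fix hz'
    · exact fx y fun g => ne (hc.uniq f hS hT g hy)
  rw [show s₂ = s₁ * z⁻¹ * (z * (s₁⁻¹ * s₂)) * (s₂⁻¹ * s₁ * (s₁⁻¹ * s₂)) by group, e1]
  simpa using mul_mem (p.cen b1 b2 d3 h1) (inv_mem (p.cen bS b2 d2 (zo_le' hz)))

end H45.HB
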