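import Cfsg.Agent.Lib.HB.Bas

set_option autoImplicit false
set_option linter.unusedSectionVars false

namespace H45.HB

open Subgroup Cfsg H69 H69.SI

universe u v

variable {G : Type u} [Group G] [Finite G] {Ω : Type v} [MulAction G Ω] [Finite Ω]
  {q Q μ : ℕ} {N : Ω → Subgroup G} {L : Subgroup G}

namespace Pl2

theorem symm {S S' : Subgroup G} (p : Pl Ω S S') : Pl Ω S' S := p.imp Eq.symm fun d => d.symm

theorem cj {S S' : Subgroup G} (p : Pl Ω S S') (g : G) : Pl Ω (S ^ᶜ g) (S' ^ᶜ g) :=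
  p.imp (fun e => by rw [e]) fun d => Set.disjoint_left.2 fun _ h1 h2 =>
    Set.disjoint_left.1 d (mem_FS_cj.1 h1) (mem_FS_cj.1 h2)

theorem eq_of {S S' : Subgroup G} (p : Pl Ω S S') {x : Ω} (h1 : x ∈ FS S) (h2 : x ∈ FS S') : S = S' :=
  p.resolve_right fun d => Set.disjoint_left.1 d h1 h2

theorem exists_D (hc : Cf q N) (p : Pa N) :
    ∃ D : Subgroup G, ∀ g, g ∈ D ↔ ∀ S, Bk N S → Pl Ω S (S ^ᶜ g) :=
  ⟨{ carrier := {g | ∀ S, Bk N S → Pl Ω S (S ^ᶜ g)}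
     one_mem' := fun S _ => Or.inl (cj_one S).symm
     mul_mem' := fun {g g'} hg hg' S hS => by
       rw [← cj_cj]
       exact p.tr (hc.bk_cj hS g') hS (hc.bk_cj (hc.bk_cj hS g') g) (symm (hg' S hS))
         (hg _ (hc.bk_cj hS g'))
     inv_mem' := fun {g} hg S hS => by
       have := hg _ (hc.bk_cj hS g⁻¹)
       rw [cj_inv_cj] at this
       exact symm this }, fun _ => Iff.rfl⟩

theorem off (h : Ev q q q N) {d : G} (hd : ∀ S, Bk N S → Pl Ω S (S ^ᶜ d)) {x y : Ω} (hxy : x ≠ y)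
    (dx : d • x = x) (dy : d • y = y) {Λ : Subgroup G} (hΛ : Bk N Λ) (hx : x ∈ FS Λ) (hy : y ∈ FS Λ)
    {z : Ω} (hz : z ∉ FS Λ) : d • z = z := by
  have hc := h.toEv0.toCf
  have k : ∀ {x : Ω} {T : Subgroup G}, d • x = x → Syl (N x) T → z ∈ FS T → d • z ∈ FS T :=
    fun {x T} dx hT hz => by
      rw [eq_of (hd T ⟨x, hT⟩) (hc.mem_FS_self hT.le) (dx ▸ (smul_mem_FS d).2 (hc.mem_FS_self hT.le))]
      exact (smul_mem_FS d).2 hz
  obtain ⟨T, hT, zT⟩ := h.join x z fun e => hz (e ▸ hx)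
  obtain ⟨T', hT', zT'⟩ := h.join y z fun e => hz (e ▸ hy)
  by_contra ne
  obtain rfl := h.toEv0.uniq ⟨x, hT⟩ ⟨y, hT'⟩ _ _ ne (k dx hT zT) zT (k dy hT' zT') zT'
  obtain rfl := h.toEv0.uniq hΛ ⟨x, hT⟩ x y hxy hx hy (hc.mem_FS_self hT.le) (hc.mem_FS_self hT'.le)
  exact hz zT

end Pl2

theorem Ev.dil (h : Ev q q q N) (p : Pa N) : ∃ D : Subgroup G, D.Normal ∧ D ≠ ⊥ ∧
    ∀ d ∈ D, ∀ x y : Ω, x ≠ y → d • x = x → d • y = y → d = 1 := by
  have hc := h.toEv0.toCf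
  obtain ⟨D, hD⟩ := Pl2.exists_D hc p
  refine ⟨D, ⟨fun d hd g => (hD _).2 fun S hS => ?_⟩, fun e => ?_, fun d hd x y hxy dx dy => ?_⟩
  · have := Pl2.cj ((hD d).1 hd _ (hc.bk_cj hS g⁻¹)) g
    rwa [cj_inv_cj, cj_cj, cj_cj] at this
  · obtain ⟨a, -, -⟩ := h.ne
    obtain ⟨S, hS⟩ := exists_isSylowIn 2 (N a)
    have bS : Bk N S := ⟨a, hS⟩
    have ha := hc.mem_FS_self hS.le
    obtain ⟨c, c1, -⟩ := p.third bS bS
    obtain ⟨S', bS', m1, p1⟩ := p.ex bS c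
    have ne : S ≠ S' := fun e => c1 (e ▸ m1)
    obtain ⟨w, hw, w1⟩ := (h.bn c).exists_z (h.sym bS' c m1)
    replace hw := zo_le' hw
    obtain ⟨Λ₀, h0, n0⟩ := (h.bn a).other hS
    have b0 : Bk N Λ₀ := ⟨a, h0⟩
    obtain ⟨Λ₁, b1, a1, p2⟩ := p.ex (hc.bk_cj b0 w) a
    obtain ⟨s, hs, es⟩ := (h.bn a).trans hS (h.sym b1 a a1) h0 (fun e => n0 (by
      have := Pl2.cj p2 w⁻¹
      rw [cj_cj_inv, e, cj_eq_of_mem_normalizer (inv_mem (p.nrm bS' bS (Pl2.symm p1) hw))] at this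
      exact Pl2.eq_of this (hc.mem_FS_self h0.le) ha)) n0
    have k0 : Pl Ω (Λ₀ ^ᶜ (s * w)) Λ₀ := by
      have := Pl2.cj p2 s
      rwa [cj_cj, es] at this
    have : s * w ∈ D := (hD _).2 fun Λ bΛ => by
      obtain ⟨Λ', b', a', p'⟩ := p.ex bΛ a
      by_cases f : Λ' = S
      · subst f
        exact Or.inl (cj_eq_of_mem_normalizer (mul_mem (p.nrm bS bΛ (Pl2.symm p') hs)
          (p.nrm bS' bΛ (p.tr bS bS' bΛ p1 (Pl2.symm p')) hw))).symm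
      · obtain ⟨s₁, h1, rfl⟩ := (h.bn a).trans hS h0 (h.sym b' a a') n0 f
        have c1 : s * s₁ = s₁ * s := zo_comm (((h.bn a).zo_eq hS (h.cardS bS)).ge h1) hs
        have c2 : w * s₁ = s₁ * w := p.cen bS bS' (p1.resolve_left ne) h1 w hw
        have k1 := Pl2.cj k0 s₁
        rw [cj_cj, ← (Commute.mul_left c1 c2).eq, ← cj_cj _ s₁] at k1
        have bτ := hc.bk_cj bΛ (s * w)
        exact p.tr b' bΛ bτ (Pl2.symm p')
          (p.tr (hc.bk_cj b' _) b' bτ k1 (Pl2.symm (Pl2.cj p' (s * w))))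
    rw [e, mem_bot, mul_eq_one_iff_inv_eq] at this
    exact ne (h.toEv0.ti bS bS' w (this ▸ inv_mem hs) hw w1)
  · replace hd := (hD d).1 hd
    obtain ⟨Λ, hΛ, hy⟩ := h.join x y hxy
    have bΛ : Bk N Λ := ⟨x, hΛ⟩
    have hx := hc.mem_FS_self hΛ.le
    refine h.faith d fun z => ?_
    by_cases hz : z ∈ FS Λ
    · by_cases e : x = z
      · exact e ▸ dx
      obtain ⟨c, c1, -⟩ := p.third bΛ bΛ
      have xc : x ≠ c := fun e => c1 (e ▸ hx)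
      obtain ⟨T, hT, cT⟩ := h.join x c xc
      refine Pl2.off h hd xc dx (Pl2.off h hd hxy dx dy bΛ hx hy c1) ⟨x, hT⟩ (hc.mem_FS_self hT.le) cT
        fun f => c1 ?_
      rwa [← hc.uniq e hΛ hT hz f]
    · exact Pl2.off h hd hxy dx dy bΛ hx hy hz

end H45.HB
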