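import Cfsg.Agent.Lib.HB.Bas

/-! Blocks of size two: degree six. -/

set_option autoImplicit false
set_option linter.unusedSectionVars false

namespace H45.HB

open Subgroup Cfsg H69 H69.SI

universe u v

variable {G : Type u} [Group G] [Finite G] {Ω : Type v} [MulAction G Ω] [Finite Ω]
  {q Q μ : ℕ} {N : Ω → Subgroup G} {L : Subgroup G}

theorem Six.four (h : Ev q q 2 N) : q = 4 := by
  obtain ⟨x, -⟩ := h.ne
  obtain ⟨S, hS⟩ := exists_isSylowIn 2 (N x)
  obtain ⟨z, zS, z1⟩ := (h.bn x).exists_z hS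
  have e := h.nadj ⟨x, hS⟩ z zS z1
  have q4 := (h.bn x).four
  obtain ⟨T, ⟨y, hT⟩, ne, zn⟩ : {S' | Bk N S' ∧ S' ≠ S ∧ z ∈ 𝐍(S')}.Nonempty :=
    Set.nonempty_of_ncard_ne_zero fun a => by rw [a] at e; omega
  have p := h.pr hS hT ne z zS z1 zn
  have le : Nat.card (T ⊓ 𝐂[z] : Subgroup G) ≤ 2 :=
    (card_le_of_le fun s (hs : s ∈ T ⊓ 𝐂[z]) => (⟨hs.1, (p.symm.cent (zo_le' zS) zn z1 hs.1).1
      (mem_cs.1 hs.2)⟩ : s ∈ T ⊓ 𝐍(S))).trans (h.le_mu ⟨y, hT⟩ ⟨x, hS⟩ ne.symm)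
  have c := card_le_comm (P := T) (W := T ⊓ 𝐂[z]) (a := z) fun s hs => by
    have m : s * z * s⁻¹ * z⁻¹ ∈ T := by
      simpa only [mul_assoc] using mul_mem hs (conj_mem_of_mem_normalizer zn (inv_mem hs))
    refine ⟨m, mem_cs.2 ?_⟩
    have i := zo_inv (((h.bn y).zo_eq hT (h.cardS ⟨y, hT⟩)).ge m)
    calc s * z * s⁻¹ * z⁻¹ * z = z * (s * z * s⁻¹ * z⁻¹)⁻¹ := by
          rw [inv_mul_cancel_right, mul_inv_rev, inv_inv, ← mul_assoc, zo_sq zS, one_mul, conj_inv, zo_inv zS]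
      _ = _ := by rw [i]
  rw [h.cardS ⟨y, hT⟩] at c
  exact le_antisymm (c.trans (Nat.mul_le_mul le le)) q4

theorem Ev.six (h : Ev q q 2 N) : q = 4 ∧ Nat.card Ω = 6 ∧
    (Nonempty (G ≃* alternatingGroup (Fin 6)) ∨ Nonempty (G ≃* Equiv.Perm (Fin 6))) := by
  obtain rfl := Six.four h
  have c6 : Nat.card Ω = 6 := h.cardΩ
  refine ⟨rfl, c6, ?_⟩
  obtain ⟨x, -⟩ := h.ne
  obtain ⟨S, hS⟩ := exists_isSylowIn 2 (N x)
  have cN := ((h.bn x).psl hS (h.cardS ⟨x, hS⟩)).1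
  have : MulAction.IsPretransitive G Ω := ⟨h.toCf.tr⟩
  have cG := card_mul_index (MulAction.stabilizer G x)
  rw [MulAction.index_stabilizer_of_transitive, c6] at cG
  have le := card_le_of_le (show N x ≤ MulAction.stabilizer G x from fun g hg => h.fix x g hg)
  let e : Ω ≃ Fin 6 := Finite.equivFinOfCardEq c6
  let φ : G →* Equiv.Perm (Fin 6) := e.permCongrHom.toMonoidHom.comp (MulAction.toPermHom G Ω)
  have i : Function.Injective φ := e.permCongrHom.injective.comp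
    ((injective_iff_map_eq_one _).2 fun g hg => h.faith g fun p => congrFun (congrArg (⇑) hg) p)
  have ψ := MonoidHom.ofInjective i
  have cR := card_mul_index φ.range
  rw [← Nat.card_congr ψ.toEquiv, Nat.card_perm, Nat.card_eq_fintype_card (α := Fin 6), Fintype.card_fin] at cR
  have i2 : φ.range.index = 1 ∨ φ.range.index = 2 := by
    have : φ.range.index ≠ 0 := index_ne_zero_of_finite
    have : ¬ 3 ≤ φ.range.index := fun a => by
      have := Nat.mul_le_mul_left (Nat.card G) a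
      simp only [Nat.factorial] at cR
      omega
    omega
  rcases i2 with a | a
  · exact .inr ⟨(ψ.trans (MulEquiv.subgroupCongr (index_eq_one.1 a))).trans topEquiv⟩
  · exact .inl ⟨ψ.trans (MulEquiv.subgroupCongr (Equiv.Perm.eq_alternatingGroup_of_index_eq_two a))⟩

end H45.HB
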