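import Cfsg.Agent.Lib.HB.Bas

/-! The block size in the Suzuki configuration. -/

set_option autoImplicit false
set_option linter.unusedSectionVars false

namespace H45.HB

open Subgroup Cfsg H69 H69.SI

universe u v

variable {G : Type u} [Group G] [Finite G] {Ω : Type v} [MulAction G Ω] [Finite Ω]
  {q Q μ : ℕ} {N : Ω → Subgroup G} {L : Subgroup G}

theorem Sz1.dvd_card {H X : Type*} [Group H] [MulAction H X] [Finite X] {n : ℕ}
    (h : ∀ x : X, n ∣ (MulAction.stabilizer H x).index) : n ∣ Nat.card X := by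
  classical
  have := Fintype.ofFinite (MulAction.orbitRel.Quotient H X)
  rw [Nat.card_congr (MulAction.selfEquivSigmaOrbits H X), Nat.card_sigma]
  exact Finset.dvd_sum fun ω _ => by
    rw [Nat.card_coe_set_eq, ← MulAction.index_stabilizer]; exact h _

theorem Ev.sz_mu (h : Ev q (q ^ 2) μ N) (hz : SzC N) : μ = q := by
  obtain ⟨x, -⟩ := h.ne
  obtain ⟨S, hS⟩ := exists_isSylowIn 2 (N x)
  obtain ⟨z, zS, z1⟩ := (h.bn x).exists_z hS
  have e := h.nadj ⟨x, hS⟩ z zS z1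
  set A := {S' | Bk N S' ∧ S' ≠ S ∧ z ∈ 𝐍(S')}
  have q4 := (h.bn x).four
  have m2 := h.two_le
  obtain ⟨m, rfl⟩ : ∃ m, μ = m + 1 := ⟨μ - 1, by omega⟩
  rw [Nat.add_sub_cancel] at e
  obtain ⟨T, hT⟩ : A.Nonempty := Set.nonempty_of_ncard_ne_zero fun a => by
    rw [a, zero_mul] at e
    exact Nat.mul_ne_zero (by omega) (pow_ne_zero 2 (by omega)) e.symm
  have le := h.le_mu ⟨x, hS⟩ hT.1 hT.2.1
  rw [hz S T ⟨x, hS⟩ hT.1 hT.2.1 z zS z1 hT.2.2, (h.bn x).cardZ hS] at le
  let _ : MulAction S A :=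
    { smul := fun s T => ⟨T.1 ^ᶜ (s : G), h.toCf.bk_cj T.2.1 _, fun a => T.2.2.1
          (cj_inj.1 (a.trans (cj_eq_of_mem_normalizer (le_normalizer s.2)).symm)), by
        rw [← cj_normalizer, mem_cj, mul_assoc, ← zo_comm zS s.2, inv_mul_cancel_left]
        exact T.2.2.2⟩
      one_smul := fun T => Subtype.ext (cj_one _)
      mul_smul := fun s s' T => Subtype.ext (cj_cj _ _ _).symm }
  have hd : q ∣ Nat.card A := Sz1.dvd_card (H := S) fun T => by
    have st : MulAction.stabilizer S T = (zo S).subgroupOf S := by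
      ext s
      rw [MulAction.mem_stabilizer_iff, mem_subgroupOf, ← hz S T ⟨x, hS⟩ T.2.1 T.2.2.1 z zS z1 T.2.2.2,
        Subtype.ext_iff]
      exact ⟨fun a => ⟨s.2, cj_eq_self_iff.1 a⟩, fun a => cj_eq_self_iff.2 a.2⟩
    have c := card_mul_index ((zo S).subgroupOf S)
    rw [Nat.card_congr (subgroupOfEquivOfLe zo_le').toEquiv, (h.bn x).cardZ hS, h.cardS ⟨x, hS⟩,
      pow_two] at c
    rw [st, Nat.eq_of_mul_eq_mul_left (by omega) c]
  obtain ⟨k, hk⟩ := hd
  rw [← Nat.card_coe_set_eq, hk, pow_two, mul_assoc, mul_left_comm m] at e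
  exact le_antisymm (Nat.le_of_dvd (by omega) ((by simp : Nat.Coprime (m + 1) m).dvd_of_dvd_mul_left
    ⟨k, by rw [← Nat.eq_of_mul_eq_mul_left (by omega) e, mul_comm]⟩)) le

end H45.HB
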