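import Cfsg.Agent.Lib.HB.Bas

/-! The Suzuki configuration with `μ = q` does not occur. -/

set_option autoImplicit false
set_option linter.unusedSectionVars false

namespace H45.HB

open Subgroup Cfsg H69 H69.SI

universe u v

variable {G : Type u} [Group G] [Finite G] {Ω : Type v} [MulAction G Ω] [Finite Ω]
  {q Q μ : ℕ} {N : Ω → Subgroup G} {L : Subgroup G}

namespace Sz2

/-- every block group adjacent to `S` contains an involution swapping `a` and `b` -/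
theorem swap (h : Ev q Q q N) (hz : SzC N) {a b : Ω} {S S' : Subgroup G} (hS : Syl (N a) S)
    (hb : b ∈ (FS S : Set Ω)) (hS' : Bk N S') (hne : S' ≠ S) {z : G} (hzS : z ∈ zo S) (hz1 : z ≠ 1)
    (hn : z ∈ 𝐍(S')) : ∃ w ∈ zo S', w ∈ 𝐍(S) ∧ w ∈ 𝐂(zo S) ∧ w • a = b := by
  obtain ⟨y, hy⟩ := hS'
  have p := h.pr hS hy hne z hzS hz1 hn
  obtain ⟨w, hw, hw1, hwn⟩ := p.symm.adj
  have e1 := hz S' S ⟨y, hy⟩ ⟨a, hS⟩ hne.symm w hw hw1 hwn
  have e2 := hz S S' ⟨a, hS⟩ ⟨y, hy⟩ hne z hzS hz1 hn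
  have n1 : ∀ v ∈ zo S', v ∈ 𝐍(S) := fun v hv => (e1 ▸ hv : v ∈ S' ⊓ 𝐍(S)).2
  have n2 : ∀ v ∈ zo S, v ∈ 𝐍(S') := fun v hv => (e2 ▸ hv : v ∈ S ⊓ 𝐍(S')).2
  have haS : a ∈ (FS S : Set Ω) := h.toCf.mem_FS_self hS.le
  obtain ⟨v, hv, e⟩ := Set.surj_on_of_inj_on_of_ncard_le (s := (zo S' : Set G)) (t := (FS S : Set Ω))
    (fun v _ => v • a) (fun v hv => smul_mem_FS_of_norm (n1 v hv) haS) (fun v v' hv hv' e => by
      by_contra hc
      have hm : v'⁻¹ * v ∈ zo S' := mul_mem (inv_mem hv') hv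
      have h1 : v'⁻¹ * v ≠ 1 := fun f => hc (inv_mul_eq_one.1 f).symm
      have e' : v • a = v' • a := e
      exact Set.disjoint_left.1 (h.disj ⟨y, hy⟩ ⟨a, hS⟩ hne.symm _ (zo_le' hm) h1 (n1 _ hm))
        (h.semi ⟨y, hy⟩ _ (zo_le' hm) h1 a (by rw [mul_smul, e', inv_smul_smul])) haS)
    (by rw [h.cardD ⟨a, hS⟩, ← (h.bn y).cardZ hy]; exact le_rfl) (Set.toFinite _) b hb
  exact ⟨v, hv, n1 v hv, fun r hr => p.comm (zo_le' hr) (n2 r hr) (zo_le' hv) (n1 v hv), e.symm⟩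

/-- an element fixing two points of the block and centralising `zo S` lies in `S` -/
theorem mem_S (h : Ev q Q μ N) (hQ : Q ≠ q ^ 3) (ht : Tr N) {a b : Ω} {S : Subgroup G}
    (hS : Syl (N a) S) (hb : b ∈ (FS S : Set Ω)) (hab : a ≠ b) {x : G} (hn : x ∈ 𝐍(S))
    (hc : x ∈ 𝐂(zo S)) (h1 : x • a = a) (h2 : x • b = b) : x ∈ S := by
  obtain ⟨s, hs, hsc⟩ := (h.bn a).cz1 hS (by rwa [h.cardS ⟨a, hS⟩]) x (h.toCf.norm h1) hn hc
  have := h.cfix hS _ hsc fun p hp => by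
    by_cases e : p = a
    · rw [e]; exact h.toCf.cent_fix hsc
    obtain ⟨t, htN, rfl⟩ := ht a S hS b hb p hp hab.symm e
    rw [← mul_smul, ← hsc t htN, mul_smul, mul_smul, h2, hb _ (inv_mem hs)]
  rw [← inv_mul_eq_one.1 this]
  exact hs

/-- if an automorphism inverts all but `q` of the `q²` elements of `S`, the inverted elements are
central -/
theorem central {S : Subgroup G} (hc : Nat.card S = q ^ 2) (h8 : 8 ≤ q) {w : G} (hw : w * w = 1)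
    (hI : q ^ 2 ≤ Set.ncard {x | x ∈ S ∧ w * x * w = x⁻¹} + q) {x : G} (hx : x ∈ S)
    (hx' : w * x * w = x⁻¹) : x ∈ 𝐂(S) := by
  set I := {x | x ∈ S ∧ w * x * w = x⁻¹} with hIdef
  have hsub : I ⊆ (S : Set G) := fun y hy => hy.1
  have c0 : (S : Set G).ncard = q ^ 2 := hc
  have c1 := Set.ncard_sdiff_add_ncard_of_subset hsub (Set.toFinite _)
  have c2 : (I \ (S ⊓ 𝐂[x] : Subgroup G)).ncard ≤ ((S : Set G) \ I).ncard :=
    Set.ncard_le_ncard_of_injOn (fun y => x * y) (fun y hy => ⟨mul_mem hx hy.1.1, fun hxy => hy.2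
      ⟨hy.1.1, mem_cs.2 (by
        have e : x⁻¹ * y⁻¹ = (x * y)⁻¹ := by
          rw [← hxy.2, ← hx', ← hy.1.2]
          calc w * x * w * (w * y * w) = w * x * (w * w) * y * w := by group
            _ = _ := by rw [hw]; group
        rw [← mul_inv_rev] at e
        exact inv_injective e)⟩⟩) (fun y _ y' _ e => mul_left_cancel e) (Set.toFinite _)
  have c3 : I.ncard ≤ (I \ (S ⊓ 𝐂[x] : Subgroup G)).ncard + Nat.card (S ⊓ 𝐂[x] : Subgroup G) :=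
    Set.ncard_le_ncard_sdiff_add_ncard I _ (Set.toFinite _)
  obtain ⟨k, hk⟩ := card_dvd_of_le (inf_le_left : S ⊓ 𝐂[x] ≤ S)
  have hk1 : k = 1 := by
    by_contra hk1
    have hk0 : k ≠ 0 := fun e => by
      rw [e, mul_zero] at hk; exact Nat.card_pos.ne' hk
    have : Nat.card (S ⊓ 𝐂[x] : Subgroup G) * 2 ≤ q ^ 2 := by
      rw [← hc, hk]; exact Nat.mul_le_mul_left _ (by omega)
    nlinarith
  have e : S ⊓ 𝐂[x] = S := eq_of_le_of_card_ge inf_le_left (by rw [hk, hk1, mul_one])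
  intro s hs
  exact mem_cs.1 (e.ge hs).2

end Sz2

theorem Ev.sz_false (h : Ev q (q ^ 2) q N) (h8 : 8 ≤ q) (hz : SzC N) (ht : Tr N) : False := by
  classical
  obtain ⟨a, b, hab⟩ := h.ne
  obtain ⟨S, hS, hb⟩ := h.join a b hab
  obtain ⟨z, hzS, hz1⟩ := (h.bn a).exists_z hS
  set A := {S' | Bk N S' ∧ S' ≠ S ∧ z ∈ 𝐍(S')} with hA
  have hq2 : q ^ 2 = (q - 1) * q + q := by
    obtain ⟨r, rfl⟩ : ∃ r, q = r + 1 := ⟨q - 1, by omega⟩
    rw [Nat.add_sub_cancel]; ring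
  have cA : A.ncard = (q - 1) * q := by
    have := h.nadj ⟨a, hS⟩ z hzS hz1
    rw [pow_two, ← mul_assoc] at this
    exact Nat.eq_of_mul_eq_mul_right (by omega) this
  have hQ : q ^ 2 ≠ q ^ 3 := fun e => by
    have := Nat.pow_right_injective (show 2 ≤ q by omega) e
    omega
  have hex : ∀ S' : Subgroup G, ∃ w : G, S' ∈ A →
      w ∈ zo S' ∧ w ∈ 𝐍(S) ∧ w ∈ 𝐂(zo S) ∧ w • a = b := fun S' => by
    by_cases e : S' ∈ A
    · obtain ⟨w, h1, h2⟩ := Sz2.swap h hz hS hb e.1 e.2.1 hzS hz1 e.2.2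
      exact ⟨w, fun _ => ⟨h1, h2⟩⟩
    · exact ⟨1, fun f => absurd f e⟩
  choose ω hω using hex
  have hpos : 7 * q ≤ (q - 1) * q := Nat.mul_le_mul_right _ (by omega)
  obtain ⟨S₀, hS₀⟩ : A.Nonempty := Set.nonempty_of_ncard_ne_zero (by omega)
  obtain ⟨a1, a2, a3, a4⟩ := hω S₀ hS₀
  have hba : ∀ S' ∈ A, ω S' • b = a := fun S' h' => by
    rw [← (hω S' h').2.2.2, ← mul_smul, zo_sq (hω S' h').1, one_smul]
  have hI : (q - 1) * q ≤ Set.ncard {x | x ∈ S ∧ ω S₀ * x * ω S₀ = x⁻¹} := by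
    rw [← cA]
    refine Set.ncard_le_ncard_of_injOn (fun S' => ω S₀ * ω S') (fun S' h' => ?_)
      (fun S' h' S'' h'' e => ?_) (Set.toFinite _)
    · obtain ⟨b1, b2, b3, b4⟩ := hω S' h'
      refine ⟨Sz2.mem_S h hQ ht hS hb hab (mul_mem a2 b2) (mul_mem a3 b3)
        (by rw [mul_smul, b4, hba S₀ hS₀]) (by rw [mul_smul, hba S' h', a4]), ?_⟩
      show ω S₀ * (ω S₀ * ω S') * ω S₀ = (ω S₀ * ω S')⁻¹
      rw [← mul_assoc, zo_sq a1, one_mul, mul_inv_rev, zo_inv a1, zo_inv b1]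
    · have e' : ω S' = ω S'' := mul_left_cancel e
      refine h.ti h'.1 h''.1 _ (zo_le' (hω S' h').1) (e' ▸ zo_le' (hω S'' h'').1) fun f => hab ?_
      rw [← (hω S' h').2.2.2, f, one_smul]
  have hle : {x | x ∈ S ∧ ω S₀ * x * ω S₀ = x⁻¹} ⊆ (zo S : Set G) := fun x hx =>
    (h.bn a).cen hS x hx.1 (Sz2.central (h.cardS ⟨a, hS⟩) h8 (zo_sq a1) (by omega) hx.1 hx.2)
  have c := Set.ncard_le_ncard hle (Set.toFinite _)
  have c' : (zo S : Set G).ncard = q := (h.bn a).cardZ hS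
  omega

end H45.HB
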