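import Cfsg.Agent.Lib.HB.Bas
import Cfsg.Agent.Lib.FGS.CyclicAux

/-! The torus of `N a` acts freely on the other points of a block through `a`. -/

set_option autoImplicit false
set_option linter.unusedSectionVars false

namespace H45.HB

open Subgroup Cfsg H69 H69.SI

universe u v

variable {G : Type u} [Group G] [Finite G] {Ω : Type v} [MulAction G Ω] [Finite Ω]
  {q Q μ : ℕ} {N : Ω → Subgroup G} {L : Subgroup G}

namespace Tor

theorem card_X (h : Ev q Q μ N) {a b : Ω} {S S₁ T : Subgroup G} (hS : Syl (N a) S)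
    (hS₁ : Syl (N a) S₁) (hne : S₁ ≠ S) (hT : ∀ t, t ∈ T ↔ t ∈ N a ∧ t ∈ 𝐍(S) ∧ t ∈ 𝐍(S₁))
    (hb : b ∈ (FS S : Set Ω)) (hab : a ≠ b) :
    Nat.card (N a ⊓ MulAction.stabilizer G b : Subgroup G) =
      Q * Nat.card (T ⊓ MulAction.stabilizer G b : Subgroup G) := by
  rw [← h.cardS ⟨a, hS⟩, ← Nat.card_prod]
  symm
  refine Nat.card_congr (Equiv.ofBijective
    (fun p : S × (T ⊓ MulAction.stabilizer G b : Subgroup G) =>
      (⟨p.1 * p.2, mul_mem (hS.le p.1.2) ((hT _).1 p.2.2.1).1, by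
        show ((p.1 : G) * p.2) • b = b
        rw [mul_smul, MulAction.mem_stabilizer_iff.1 p.2.2.2, hb _ p.1.2]⟩ :
        (N a ⊓ MulAction.stabilizer G b : Subgroup G))) ⟨?_, ?_⟩)
  · rintro ⟨s, t⟩ ⟨s', t'⟩ e
    have e' : (s : G) * t = s' * t' := congrArg Subtype.val e
    have e2 : (s' : G)⁻¹ * s = t' * (t : G)⁻¹ := by
      rw [inv_mul_eq_iff_eq_mul, ← mul_assoc, ← e', mul_inv_cancel_right]
    have := (h.bn a).reg hS hS₁ hne _ (mul_mem (inv_mem s'.2) s.2)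
      (e2 ▸ mul_mem ((hT _).1 t'.2.1).2.2 (inv_mem ((hT _).1 t.2.1).2.2))
    have hs : (s : G) = s' := (inv_mul_eq_one.1 this).symm
    rw [hs] at e'
    exact Prod.ext (Subtype.ext hs) (Subtype.ext (mul_left_cancel e'))
  · rintro ⟨x, hx, hxb⟩
    have hn := h.toCf.kk_norm hab hS hb (h.fix a x hx) hxb
    obtain ⟨s, hs, hs'⟩ := (h.bn a).dec hS hS₁ hne (le_normalizer hx) hn
    refine ⟨(⟨s, hs⟩, ⟨s⁻¹ * x, (hT _).2 ⟨mul_mem (inv_mem (hS.le hs)) hx,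
      mul_mem (inv_mem (le_normalizer hs)) hn, hs'⟩, ?_⟩), Subtype.ext (by simp)⟩
    show (s⁻¹ * x) • b = b
    rw [mul_smul, MulAction.mem_stabilizer_iff.1 hxb, hb _ (inv_mem hs)]

theorem free (h : Ev q Q μ N) (hQ : Q ≠ q ^ 3) (hμ : 2 < μ) {a b : Ω} {S S₁ : Subgroup G}
    (hS : Syl (N a) S) (hS₁ : Syl (N a) S₁) (hne : S₁ ≠ S) (hb : b ∈ (FS S : Set Ω)) (hab : a ≠ b)
    {t : G} (ht : t ∈ N a) (h1 : t ∈ 𝐍(S)) (h2 : t ∈ 𝐍(S₁)) (htb : t • b = b) : t = 1 := by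
  by_contra ht1
  have hc := h.toCf
  have hQ' : Nat.card S ≠ q ^ 3 := by rwa [h.cardS ⟨a, hS⟩]
  have haS : a ∈ (FS S : Set Ω) := hc.mem_FS_self hS.le
  have haS₁ : a ∈ (FS S₁ : Set Ω) := hc.mem_FS_self hS₁.le
  have key : ∀ c ∈ (FS S₁ : Set Ω), a ≠ c → t • c = c := fun c hcS hac => by
    have e1 := card_X h (T := N a ⊓ 𝐍(S) ⊓ 𝐍(S₁)) hS hS₁ hne (fun t => by
      simp only [mem_inf, and_assoc]) hb hab
    have e2 := card_X h (T := N a ⊓ 𝐍(S) ⊓ 𝐍(S₁)) hS₁ hS hne.symm (fun t => by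
      simp only [mem_inf]; tauto) hcS hac
    rw [hc.card_stab hab hac, e2] at e1
    have hQ0 : 0 < Q := h.cardS ⟨a, hS⟩ ▸ Nat.card_pos
    have e3 := H80.eq_of_card_eq_of_le_isCyclic ((h.bn a).cyc hS hS₁ hne hQ') inf_le_left inf_le_left
      (Nat.eq_of_mul_eq_mul_left hQ0 e1)
    have : t ∈ N a ⊓ 𝐍(S) ⊓ 𝐍(S₁) ⊓ MulAction.stabilizer G c := by
      rw [e3]; exact ⟨⟨⟨ht, h1⟩, h2⟩, htb⟩
    exact this.2
  have hcard : 1 < ((FS S₁ : Set Ω) \ {a}).ncard := by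
    rw [Set.ncard_sdiff_singleton_of_mem haS₁, h.cardD ⟨a, hS₁⟩]; omega
  obtain ⟨c, c', ⟨hcS, hca⟩, ⟨hcS', hca'⟩, hcc⟩ := (Set.one_lt_ncard_iff (Set.toFinite _)).1 hcard
  have hac : a ≠ c := fun e => hca e.symm
  have hac' : a ≠ c' := fun e => hca' e.symm
  have hno : ∀ p ∈ (FS S : Set Ω), p ∈ (FS S₁ : Set Ω) → a ≠ p → False := fun p h3 h4 h5 =>
    hne (h.uniq ⟨a, hS₁⟩ ⟨a, hS⟩ a p h5 haS₁ h4 haS h3)
  have hbc : ∀ p ∈ (FS S₁ : Set Ω), b ≠ p := fun p hp e => hno b hb (e ▸ hp) hab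
  obtain ⟨U, hU, hcU⟩ := h.join b c (hbc c hcS)
  obtain ⟨U', hU', hcU'⟩ := h.join b c' (hbc c' hcS')
  have hSb := h.sym ⟨a, hS⟩ b hb
  have hUS : U ≠ S := fun e => hno c (e ▸ hcU) hcS hac
  have hUS' : U' ≠ S := fun e => hno c' (e ▸ hcU') hcS' hac'
  have hUU : U ≠ U' := fun e => by
    subst e
    have := h.uniq ⟨b, hU⟩ ⟨a, hS₁⟩ c c' hcc hcU hcU' hcS hcS'
    exact hbc b (this ▸ hc.mem_FS_self hU.le) rfl
  have n1 := hc.kk_norm (hbc c hcS) hU hcU htb (key c hcS hac)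
  have n2 := hc.kk_norm (hbc c' hcS') hU' hcU' htb (key c' hcS' hac')
  obtain ⟨s, hs, e⟩ := (h.bn b).trans hSb hU hU' hUS hUS'
  have hm : s⁻¹ * t * s * t⁻¹ ∈ S := by
    have := mul_mem (inv_mem hs) (conj_mem_of_mem_normalizer h1 hs)
    simpa only [mul_assoc] using this
  have := (h.bn b).reg hSb hU hUS _ hm (cj_eq_self_iff.1 (by
    rw [← cj_cj, ← cj_cj, ← cj_cj, cj_eq_of_mem_normalizer (inv_mem n1), e,
      cj_eq_of_mem_normalizer n2, ← e, cj_cj_inv]))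
  have hts : t * s = s * t := by
    calc t * s = s * (s⁻¹ * t * s * t⁻¹) * t := by group
      _ = s * t := by rw [this, mul_one]
  have hs1 := (h.bn a).fpf hS hS₁ hne hQ' t ht h1 h2 ht1 s hs hts
  rw [hs1, cj_one] at e
  exact hUU e

theorem main (h : Ev q Q μ N) (hQ : Q ≠ q ^ 3) (hμ : 2 < μ) {a b : Ω} {S : Subgroup G}
    (hS : Syl (N a) S) (hb : b ∈ (FS S : Set Ω)) (hab : b ≠ a) :
    q ≤ μ ∧ (μ = q → ∀ b' ∈ (FS S : Set Ω), b' ≠ a → ∃ t ∈ N a, t • b = b') := by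
  classical
  have hc := h.toCf
  obtain ⟨S₁, hS₁, hne⟩ := (h.bn a).other hS
  obtain ⟨u, hu, hu1⟩ := (h.bn a).exists_z hS
  have haS : a ∈ (FS S : Set Ω) := hc.mem_FS_self hS.le
  have hex : ∀ v : G, ∃ t : G, v ∈ (zo S : Set G) \ {1} →
      t ∈ N a ∧ t ∈ 𝐍(S) ∧ t ∈ 𝐍(S₁) ∧ t * u * t⁻¹ = v := fun v => by
    by_cases hv : v ∈ (zo S : Set G) \ {1}
    · obtain ⟨t, h1, h2⟩ := (h.bn a).ztr hS hS₁ hne u hu hu1 v hv.1 hv.2
      exact ⟨t, fun _ => ⟨h1, h2⟩⟩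
    · exact ⟨1, fun e => absurd e hv⟩
  choose τ hτ using hex
  have hmap : ∀ v ∈ (zo S : Set G) \ {1}, τ v • b ∈ (FS S : Set Ω) \ {a} := fun v hv =>
    ⟨smul_mem_FS_of_norm (hτ v hv).2.1 hb, fun e => hab (by
      have e' : τ v • b = τ v • a := by rw [h.fix a _ (hτ v hv).1]; exact e
      exact smul_left_cancel _ e')⟩
  have hinj : Set.InjOn (fun v => τ v • b) ((zo S : Set G) \ {1}) := fun v hv w hw e => by
    obtain ⟨a1, a2, a3, a4⟩ := hτ v hv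
    obtain ⟨b1, b2, b3, b4⟩ := hτ w hw
    have := free h hQ hμ hS hS₁ hne hb hab.symm (mul_mem (inv_mem b1) a1) (mul_mem (inv_mem b2) a2)
      (mul_mem (inv_mem b3) a3) (by
        have e' : τ v • b = τ w • b := e
        rw [mul_smul, e', inv_smul_smul])
    rw [← a4, ← b4, inv_mul_eq_one.1 this]
  have c1 : ((zo S : Set G) \ {1}).ncard = q - 1 := by
    rw [Set.ncard_sdiff_singleton_of_mem (by exact one_mem (zo S)), ← (h.bn a).cardZ hS]; rfl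
  have c2 : ((FS S : Set Ω) \ {a}).ncard = μ - 1 := by
    rw [Set.ncard_sdiff_singleton_of_mem haS, h.cardD ⟨a, hS⟩]
  have hle := Set.ncard_le_ncard_of_injOn _ hmap hinj (Set.toFinite _)
  rw [c1, c2] at hle
  refine ⟨by omega, fun e b' hb' hb'a => ?_⟩
  obtain ⟨v, hv, e'⟩ := Set.surj_on_of_inj_on_of_ncard_le (fun v _ => τ v • b) hmap
    (fun v w hv hw e => hinj hv hw e) (by rw [c1, c2, e]) (Set.toFinite _) b' ⟨hb', hb'a⟩
  exact ⟨τ v, (hτ v hv).1, e'.symm⟩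

end Tor

theorem Ev.tor (h : Ev q Q μ N) (hQ : Q ≠ q ^ 3) (hμ : 2 < μ) : q ≤ μ ∧ (μ = q → Tr N) := by
  refine ⟨?_, fun e a S hS b hb b' hb' h1 h2 => (Tor.main h hQ hμ hS hb h1).2 e b' hb' h2⟩
  obtain ⟨a, b, hab⟩ := h.ne
  obtain ⟨S, hS, hb⟩ := h.join a b hab
  exact (Tor.main h hQ hμ hS hb hab.symm).1

end H45.HB
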